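import Mathlib
import Cfsg.Agent.H486.HgSL
import Cfsg.Agent.S2540
import Cfsg.Agent.LieClassical.Order72
import Cfsg.Agent.ClassicalGeometry.PSL2Basic
import Cfsg.Agent.Lib.Cores
import Cfsg.Agent.S0205
import Cfsg.Agent.H787.Crit
import Cfsg.Agent.SignalizersComponents.ComponentExists
import Cfsg.Agent.FastGrp
import Cfsg.Agent.Prune
set_option linter.all false
prune_inst 0x7fb8bcfbcff88ddfffff7e7ffffddffff8b8dffff6dffbfbffed79ff2bdf23679fe5fb8f7fe450ff8ed6e0b410b87813fb7eeeffea6fdc7ffffd5ff45ffbee1fe5ffbd0c5196b8341ffc6ffffbf07f8e7f3fffffffffffffffffffffffffffffffffffffffff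
open scoped Cfsg.Agent.FastGrp

-- part: H486/HgRad
section
/-!
# Homogeneous finite groups: action on a normal elementary abelian subgroup (helper486, for S3924)
-/

set_option autoImplicit false
set_option linter.unusedSectionVars false

namespace Cfsg.Agent.H486.Hg.Rad

open Subgroup Cfsg.Agent.H486.Hg Cfsg.Agent.H486.Sn

universe u

variable {G : Type u} [Group G] [Finite G] {p : ℕ} [hp : Fact p.Prime] {k : ℕ} {V : Subgroup G}

/-- the representation on `V`, as matrices -/
noncomputable def rhoM (c : V ≃* Multiplicative (Fin k → ZMod p)) (hV : ∀ g : G, ∀ x ∈ V, g * x * g⁻¹ ∈ V) :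
    G →* Matrix (Fin k) (Fin k) (ZMod p) where
  toFun g := (exists_actM c (hV g)).choose
  map_one' := (exists_actM c (hV 1)).choose_spec.unique ActM.one
  map_mul' g h := (exists_actM c (hV (g * h))).choose_spec.unique
    ((exists_actM c (hV g)).choose_spec.mul (exists_actM c (hV h)).choose_spec)

theorem rhoM_spec (c : V ≃* Multiplicative (Fin k → ZMod p)) (hV : ∀ g : G, ∀ x ∈ V, g * x * g⁻¹ ∈ V) (g : G) :
    ActM c g (rhoM c hV g) := (exists_actM c (hV g)).choose_spec

/-- the representation on `V` -/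
noncomputable def rho (c : V ≃* Multiplicative (Fin k → ZMod p)) (hV : ∀ g : G, ∀ x ∈ V, g * x * g⁻¹ ∈ V) :
    G →* Matrix.GeneralLinearGroup (Fin k) (ZMod p) := MonoidHom.toHomUnits (rhoM c hV)

theorem rho_spec (c : V ≃* Multiplicative (Fin k → ZMod p)) (hV : ∀ g : G, ∀ x ∈ V, g * x * g⁻¹ ∈ V) (g : G) :
    ActM c g (rho c hV g).1 := rhoM_spec c hV g

theorem dichotomy (hH : Homog G) (c : V ≃* Multiplicative (Fin k → ZMod p))
    (hV : ∀ g : G, ∀ x ∈ V, g * x * g⁻¹ ∈ V) (hk : 1 ≤ k) (hex : ¬ (k = 2 ∧ p ≤ 3)) :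
    (∀ g : G, ∃ a : ZMod p, ActM c g (a • (1 : Matrix (Fin k) (Fin k) (ZMod p)))) ∨
      ∀ M : Matrix.SpecialLinearGroup (Fin k) (ZMod p), ∃ g : G, ActM c g M.1 := by
  have h1 := Cfsg.Agent.S2540.result (F := ZMod p) k hk (by rwa [ZMod.card]) (rho c hV).range (by
    rintro s _ ⟨g, rfl⟩
    obtain ⟨φ, hφ⟩ := exists_autM hH c (A := s.1) (B := (s⁻¹).1) (congrArg Subtype.val (mul_inv_cancel s))
      (congrArg Subtype.val (inv_mul_cancel s))
    refine ⟨φ g, Units.ext ?_⟩
    have h2 := (rho_spec c hV g).aut (congrArg Subtype.val (mul_inv_cancel s)) hφ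
    exact (rho_spec c hV (φ g)).unique h2)
  rcases h1 with h1 | h1
  · left
    intro g
    obtain ⟨a, ha⟩ := h1 _ ⟨g, rfl⟩
    exact ⟨a, ha ▸ rho_spec c hV g⟩
  · right
    intro M
    obtain ⟨g, hg⟩ := h1 ⟨M, rfl⟩
    refine ⟨g, ?_⟩
    have h2 := rho_spec c hV g
    rw [hg] at h2
    exact h2

theorem centralises_of_ker (c : V ≃* Multiplicative (Fin k → ZMod p)) (hV : ∀ g : G, ∀ x ∈ V, g * x * g⁻¹ ∈ V)
    {g : G} (h : rho c hV g = 1) : ∀ x ∈ V, g * x * g⁻¹ = x := by
  have h1 := rho_spec c hV g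
  rw [h] at h1
  exact ActM.centralises h1

/-- scalars commute, so a perfect group acts trivially -/
theorem trivial_of_scalar (c : V ≃* Multiplicative (Fin k → ZMod p)) (hV : ∀ g : G, ∀ x ∈ V, g * x * g⁻¹ ∈ V)
    (h : ∀ g : G, ∃ a : ZMod p, ActM c g (a • (1 : Matrix (Fin k) (Fin k) (ZMod p)))) {K : Subgroup G}
    (hK : ⁅K, K⁆ = K) : ∀ g ∈ K, ∀ x ∈ V, g * x * g⁻¹ = x := by
  have h1 : ⁅K, K⁆ ≤ (rho c hV).ker := by
    rw [Subgroup.commutator_le]
    intro a _ b _
    rw [MonoidHom.mem_ker, map_commutatorElement, commutatorElement_eq_one_iff_mul_comm]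
    apply Units.ext
    obtain ⟨r, hr⟩ := h a
    obtain ⟨s, hs⟩ := h b
    have h2 := (rho_spec c hV a).unique hr
    have h3 := (rho_spec c hV b).unique hs
    change (rho c hV a).1 * (rho c hV b).1 = (rho c hV b).1 * (rho c hV a).1
    rw [h2, h3]
    simp only [smul_mul_assoc, one_mul]
    rw [smul_comm]
  rw [hK] at h1
  intro g hg
  exact centralises_of_ker c hV (h1 hg)

/-- a perfect group maps trivially to a solvable one -/
theorem ker_of_solvable {H A : Type*} [Group H] [Group A] [Group.IsSolvable A] {K : Subgroup H} (hK : ⁅K, K⁆ = K)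
    (f : H →* A) : K ≤ f.ker := by
  have h1 : ⁅K.map f, K.map f⁆ = K.map f := by rw [← Subgroup.map_commutator, hK]
  have h2 : ∀ n, K.map f ≤ derivedSeries A n := by
    intro n
    induction n with
    | zero => exact le_top
    | succ n ih =>
      rw [derivedSeries_succ, ← h1]
      exact Subgroup.commutator_mono ih ih
  obtain ⟨n, hn⟩ := Group.IsSolvable.solvable (G := A)
  have h3 := h2 n
  rw [hn, le_bot_iff, Subgroup.map_eq_bot_iff] at h3
  exact h3

theorem trivial_small (c : V ≃* Multiplicative (Fin 2 → ZMod p)) (hV : ∀ g : G, ∀ x ∈ V, g * x * g⁻¹ ∈ V)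
    (hp3 : p ≤ 3) {K : Subgroup G} (hK : ⁅K, K⁆ = K) : ∀ g ∈ K, ∀ x ∈ V, g * x * g⁻¹ = x := by
  -- the determinant is trivial on `K`
  have hdet : K ≤ (Matrix.GeneralLinearGroup.det.comp (rho c hV)).ker := ker_of_solvable hK _
  let f : K →* Matrix.SpecialLinearGroup (Fin 2) (ZMod p) :=
    { toFun := fun g => ⟨(rho c hV g).1, by
        have h1 := hdet g.2
        rw [MonoidHom.mem_ker] at h1
        exact congrArg Units.val h1⟩
      map_one' := Subtype.ext (by change (rho c hV 1).1 = 1; rw [map_one]; rfl)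
      map_mul' := fun a b => Subtype.ext (by
        change (rho c hV (a * b)).1 = (rho c hV a).1 * (rho c hV b).1
        rw [map_mul]; rfl) }
  have hsol : Group.IsSolvable (Matrix.SpecialLinearGroup (Fin 2) (ZMod p)) := by
    refine Cfsg.Agent.LieClassical.Order72.isSolvable_of_card_dvd ?_
    have hcard := Cfsg.Agent.ClassicalGeometry.PSL2Basic.card_SL2 (ZMod p)
    rw [ZMod.card] at hcard
    rw [hcard]
    have h2 := hp.out.two_le
    interval_cases p <;> norm_num
  have hK' : ⁅(⊤ : Subgroup K), (⊤ : Subgroup K)⁆ = ⊤ := by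
    apply (Subgroup.map_injective K.subtype_injective)
    rw [Subgroup.map_commutator, ← MonoidHom.range_eq_map, Subgroup.range_subtype, hK]
  have h1 := ker_of_solvable hK' f
  intro g hg
  have h2 := h1 (mem_top (⟨g, hg⟩ : K))
  rw [MonoidHom.mem_ker] at h2
  exact centralises_of_ker c hV (Units.ext (congrArg Subtype.val h2))

end Cfsg.Agent.H486.Hg.Rad
end

-- part: H486/HgRadB
section
/-!
# Homogeneous finite groups: perfect subgroups centralise `O_p(G)`, `p` odd (helper486, for S3924)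
-/

set_option autoImplicit false
set_option linter.unusedSectionVars false

namespace Cfsg.Agent.H486.Hg.Rad

open Subgroup Cfsg.Agent.H486.Hg Cfsg.Agent.H486.Sn Cfsg.Agent.Lib.Cores

universe u

variable {G : Type u} [Group G] [Finite G] {p : ℕ} [hp : Fact p.Prime]

/-- all elements of order `p` are central in `O_p(G)` -/
theorem omega_le (hH : Homog G) (h : Cfsg.pCore p G ≠ ⊥) {x : G} (hx : x ^ p = 1) :
    x ∈ Cfsg.pCore p G ∧ ∀ y ∈ Cfsg.pCore p G, x * y = y * x := by
  set Q := Cfsg.pCore p G with hQ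
  by_cases hx1 : x = 1
  · subst hx1
    exact ⟨Q.one_mem, fun y _ => by rw [one_mul, mul_one]⟩
  have hQp : IsPGroup p Q := pCore_isPGroup p
  have : Nontrivial Q := (Subgroup.nontrivial_iff_ne_bot Q).2 h
  have h1 := hQp.center_nontrivial
  have h2 : p ∣ Nat.card (center Q) := by
    rcases (hQp.to_subgroup (center Q)).card_eq_or_dvd with h2 | h2
    · exact absurd h2 (Finite.one_lt_card (α := center Q)).ne'
    · exact h2
  obtain ⟨z, hz⟩ := exists_prime_orderOf_dvd_card' (G := center Q) p h2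
  have hzo : orderOf ((z : Q) : G) = p := by
    rw [Subgroup.orderOf_coe, Subgroup.orderOf_coe, hz]
  have hxo : orderOf x = p := orderOf_eq_prime hx hx1
  obtain ⟨φ, hφ⟩ := SLT.exists_aut_of_orderOf hH (hzo.trans hxo.symm)
  have hchar : Q.Characteristic := pCore_characteristic p
  have hφQ : ∀ (ψ : MulAut G) (y : G), y ∈ Q → ψ y ∈ Q := by
    intro ψ y hy
    have h3 := Subgroup.characteristic_iff_map_eq.1 hchar ψ
    rw [← h3]
    exact ⟨y, hy, rfl⟩
  refine ⟨by rw [← hφ]; exact hφQ φ _ (z : Q).2, fun y hy => ?_⟩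
  have h3 : φ⁻¹ y ∈ Q := hφQ φ⁻¹ y hy
  have h4 := congrArg Subtype.val ((Subgroup.mem_center_iff.1 z.2) ⟨φ⁻¹ y, h3⟩)
  change φ⁻¹ y * ((z : Q) : G) = ((z : Q) : G) * φ⁻¹ y at h4
  have h5 := congrArg φ h4
  rw [map_mul, map_mul, hφ, MulAut.apply_inv_self] at h5
  exact h5.symm

/-- the subgroup of the elements of order `p` -/
theorem exists_V (hH : Homog G) (h : Cfsg.pCore p G ≠ ⊥) : ∃ V : Subgroup G, (∀ x, x ∈ V ↔ x ^ p = 1) ∧
    V ≤ Cfsg.pCore p G ∧ ∀ x ∈ V, ∀ y ∈ Cfsg.pCore p G, x * y = y * x := by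
  refine ⟨{ carrier := {x | x ^ p = 1}
            mul_mem' := fun {x y} hx hy => ?_
            one_mem' := one_pow p
            inv_mem' := fun {x} hx => ?_ }, fun x => Iff.rfl, fun x hx => (omega_le hH h hx).1,
            fun x hx => (omega_le hH h hx).2⟩
  · change (x * y) ^ p = 1
    have h1 : Commute x y := (omega_le hH h hx).2 y (omega_le hH h hy).1
    have hx' : x ^ p = 1 := hx
    have hy' : y ^ p = 1 := hy
    rw [h1.mul_pow, hx', hy', one_mul]
  · change x⁻¹ ^ p = 1
    have hx' : x ^ p = 1 := hx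
    rw [inv_pow, hx', inv_one]

/-- the Sylow `p`-subgroups centralise `V` -/
theorem sylow_centralises (hp2 : p ≠ 2) (hH : Homog G) {V P : Subgroup G} (hV : ∀ x, x ∈ V ↔ x ^ p = 1)
    (hVc : ∀ x ∈ V, ∀ y ∈ V, x * y = y * x) (hP : IsSyl p (⊤ : Subgroup G) P) : ∀ a ∈ P, ∀ x ∈ V, a * x * a⁻¹ = x := by
  have hPV : ∀ a ∈ P, ∀ x ∈ V, a * x * a⁻¹ ∈ V := by
    intro a _ x hx
    rw [hV] at hx ⊢
    rw [conj_pow, hx]; group
  obtain ⟨w, hw2, hwP, hwV⟩ := exists_w hp2 hH hVc hPV (hP.restrict le_YP le_top)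
  intro a ha
  obtain ⟨b, hb, hwb, hba⟩ := exists_fixed hp2 hPV hP.isPGroup hw2 hwP hwV ha
  have hb1 : b = 1 := by
    by_contra hne
    obtain ⟨k, hk⟩ := hP.isPGroup ⟨b, hb⟩
    have hk' : b ^ p ^ k = 1 := congrArg Subtype.val hk
    obtain ⟨j, hj, hj2⟩ := (Nat.dvd_prime_pow hp.out).1 (orderOf_dvd_of_pow_eq_one hk')
    have hj0 : j ≠ 0 := by
      rintro rfl
      rw [pow_zero] at hj2
      exact hne (orderOf_eq_one_iff.1 hj2)
    obtain ⟨i, rfl⟩ := Nat.exists_eq_succ_of_ne_zero hj0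
    set z := b ^ p ^ i with hz
    have hzp : z ^ p = 1 := by
      rw [hz, ← pow_mul, ← pow_succ, ← Nat.succ_eq_add_one, ← hj2, pow_orderOf_eq_one]
    have hz1 : z ≠ 1 := by
      intro h
      have h1 := orderOf_dvd_of_pow_eq_one h
      rw [hj2, Nat.pow_dvd_pow_iff_le_right hp.out.one_lt] at h1
      omega
    have h1 := hwV z ((hV z).2 hzp)
    have h2 : w z = z := by rw [hz, map_pow, hwb]
    rw [h2] at h1
    have h3 : z ^ 2 = 1 := by
      rw [pow_two]
      nth_rewrite 1 [h1]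
      exact inv_mul_cancel z
    have h4 : z ^ (Nat.gcd p 2) = 1 := by
      rw [pow_gcd_eq_one]
      exact ⟨hzp, h3⟩
    rw [(Nat.coprime_primes hp.out Nat.prime_two).2 hp2, pow_one] at h4
    exact hz1 h4
  intro x hx
  rw [← hba x hx, hb1]
  group

/-- a perfect subgroup centralises `V`, `p` odd -/
theorem perfect_centralises_V (hp2 : p ≠ 2) (hH : Homog G) {V : Subgroup G} (hV : ∀ x, x ∈ V ↔ x ^ p = 1)
    (hVc : ∀ x ∈ V, ∀ y ∈ V, x * y = y * x) {K : Subgroup G} (hK : ⁅K, K⁆ = K) :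
    ∀ g ∈ K, ∀ x ∈ V, g * x * g⁻¹ = x := by
  have hVn : ∀ g : G, ∀ x ∈ V, g * x * g⁻¹ ∈ V := by
    intro a x hx
    rw [hV] at hx ⊢
    rw [conj_pow, hx]; group
  have hVp : IsPGroup p V := fun x => ⟨1, Subtype.ext (by simpa only [_root_.pow_one, _root_.SubmonoidClass.coe_pow, _root_.OneMemClass.coe_one] using (hV x).1 x.2)⟩
  obtain ⟨k, hk⟩ := IsPGroup.iff_card.1 hVp
  obtain ⟨c⟩ := exists_equiv (A := V) (p := p) (k := k) (fun x y => Subtype.ext (hVc x x.2 y y.2))
    (fun x => Subtype.ext (by simpa only [_root_.SubmonoidClass.coe_pow, _root_.OneMemClass.coe_one] using (hV x).1 x.2)) hk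
  by_cases hk0 : k = 0
  · subst hk0
    rw [pow_zero, Subgroup.card_eq_one] at hk
    intro g _ x hx
    rw [hk, mem_bot] at hx
    rw [hx]; group
  by_cases hk1 : k = 1
  · subst hk1
    refine trivial_of_scalar c hVn (fun g => ?_) hK
    obtain ⟨M, hM⟩ := exists_actM c (hVn g)
    refine ⟨M 0 0, ?_⟩
    have h1 : M = M 0 0 • (1 : Matrix (Fin 1) (Fin 1) (ZMod p)) := by
      ext i j
      have hi : i = 0 := Subsingleton.elim _ _
      have hj : j = 0 := Subsingleton.elim _ _
      subst hi; subst hj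
      simp
    rw [← h1]; exact hM
  by_cases hex : k = 2 ∧ p ≤ 3
  · obtain ⟨rfl, hp3⟩ := hex
    exact trivial_small c hVn hp3 hK
  rcases dichotomy hH c hVn (by omega) hex with h | h
  · exact trivial_of_scalar c hVn h hK
  · exfalso
    obtain ⟨n, rfl⟩ : ∃ n, k = n + 1 := ⟨k - 1, by omega⟩
    have hn : n ≠ 0 := by omega
    set r : Fin (n + 1) → ZMod p := fun i => if i = 0 then 0 else 1 with hr
    have hr0 : r 0 = 0 := by simp [hr]
    obtain ⟨M, hM⟩ := exists_mat r hr0
    obtain ⟨g, hg⟩ := h M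
    have hgA : ActSh c g r := by
      intro x
      rw [hg x, mv, hM]
      rfl
    obtain ⟨P, hP⟩ := exists_isSyl p (⊤ : Subgroup G)
    have hPc := sylow_centralises hp2 hH hV hVc hP
    obtain ⟨t, ⟨j, rfl⟩, l, hl⟩ := exists_p_part (p := p) g 1
    set u := g ^ (1 + p ^ 1 * j) with hu
    have h1 : IsPGroup p (zpowers u) := by
      rintro ⟨_, i, rfl⟩
      refine ⟨l, Subtype.ext ?_⟩
      change (u ^ i) ^ p ^ l = 1
      rw [← zpow_natCast, ← _root_.zpow_mul, mul_comm, _root_.zpow_mul, zpow_natCast, hl, _root_.one_zpow]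
    obtain ⟨y, -, hle⟩ := hP.exists_conj_le le_top h1
    have h2 := hle (mem_zpowers u)
    rw [mem_cj] at h2
    have huV : ∀ x ∈ V, u * x * u⁻¹ = x := by
      intro x hx
      have h3 : y⁻¹ * x * y ∈ V := by
        have := hVn y⁻¹ x hx
        rwa [inv_inv] at this
      have h4 := hPc _ h2 _ h3
      have h5 : u * x * u⁻¹ = y * ((y⁻¹ * u * y) * (y⁻¹ * x * y) * (y⁻¹ * u * y)⁻¹) * y⁻¹ := by group
      rw [h5, h4]
      group
    have h3 := hgA.pow hr0 (1 + p ^ 1 * j)
    have h4 : (1 + p ^ 1 * j) • r = r := by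
      ext i
      simp
    rw [h4] at h3
    have h5 : ActSh c u 0 := fun x => by rw [sh_zero]; exact huV x x.2
    have h6 := congrFun (h3.unique h5) (Fin.last n)
    have h7 : Fin.last n ≠ 0 := by
      intro h8
      apply hn
      exact congrArg Fin.val h8
    simp [hr, h7] at h6

/-- a perfect group whose `p'`-elements centralise the normal subgroup `Q` centralises `Q` -/
theorem centralises_of_coprime {Q : Subgroup G} [Q.Normal] {K : Subgroup G} (hK : ⁅K, K⁆ = K) (p : ℕ)
    [hp : Fact p.Prime]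
    (h : ∀ g ∈ K, (orderOf g).Coprime p → ∀ x ∈ Q, g * x * g⁻¹ = x) : ∀ g ∈ K, ∀ x ∈ Q, g * x * g⁻¹ = x := by
  let ρ : G →* MulAut Q := MulAut.conjNormal
  have h1 : IsPGroup p (K.map ρ) := by
    rintro ⟨_, g, hg, rfl⟩
    obtain ⟨k, m, hm, hgo⟩ := Nat.exists_eq_pow_mul_and_not_dvd (orderOf_pos g).ne' p hp.out.ne_one
    refine ⟨k, Subtype.ext ?_⟩
    change ρ g ^ p ^ k = 1
    rw [← map_pow]
    have h2 : (orderOf (g ^ p ^ k)).Coprime p := by
      have h3 : orderOf (g ^ p ^ k) ∣ m := orderOf_dvd_of_pow_eq_one (by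
        rw [← pow_mul, ← hgo, pow_orderOf_eq_one])
      exact Nat.Coprime.coprime_dvd_left h3 ((hp.out.coprime_iff_not_dvd).2 hm).symm
    have h3 := h _ (K.pow_mem hg _) h2
    ext x
    rw [MulAut.conjNormal_apply, h3 x x.2]
    rfl
  have hs : Group.IsSolvable (K.map ρ) := by
    have := h1.isNilpotent
    infer_instance
  have h2 := Cfsg.Agent.Schreier.Basic.le_ker_of_perfect ρ hK hs
  intro g hg x hx
  have h3 := h2 hg
  rw [MonoidHom.mem_ker] at h3
  have h4 := congrArg Subtype.val (DFunLike.congr_fun h3 (⟨x, hx⟩ : Q))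
  rw [MulAut.conjNormal_apply] at h4
  exact h4

/-- **A perfect subgroup centralises `O_p(G)`, `p` odd.** -/
theorem perfect_centralises_odd (hp2 : p ≠ 2) (hH : Homog G) {K : Subgroup G} (hK : ⁅K, K⁆ = K) :
    ∀ g ∈ K, ∀ x ∈ Cfsg.pCore p G, g * x * g⁻¹ = x := by
  by_cases h : Cfsg.pCore p G = ⊥
  · intro g _ x hx
    rw [h, mem_bot] at hx
    rw [hx]; group
  have hn : (Cfsg.pCore p G).Normal := Cfsg.Agent.Lib.Cores.pCore_normal p
  obtain ⟨V, hV, hVQ, hVc⟩ := exists_V hH h
  have hVc' : ∀ x ∈ V, ∀ y ∈ V, x * y = y * x := fun x hx y hy => hVc x hx y (hVQ hy)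
  refine centralises_of_coprime hK p fun g hg hgo => ?_
  have h1 := perfect_centralises_V hp2 hH hV hVc' hK g hg
  exact fix_of_omega hp2 (pCore_isPGroup p) (φ := MulAut.conj g) (fun x hx => hn.conj_mem x hx g) hgo
    (fun x _ => by rw [conj_pow_apply, pow_orderOf_eq_one]; group)
    (fun x _ hxp => h1 x ((hV x).2 hxp))

end Cfsg.Agent.H486.Hg.Rad
end

-- part: H486/HgRadC
section
/-!
# Homogeneous finite groups: the involutions, if `O₂(G) ≠ 1` (helper486, for S3924)

`t_trick` : if all involutions of the homogeneous group `G` lie in the normal elementary abelian subgroup `V` of rank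
at least 2, then `G` does not induce `GL(V)` on `V`.
-/

set_option autoImplicit false
set_option linter.unusedSectionVars false

namespace Cfsg.Agent.H486.Hg.Rad

open Subgroup Cfsg.Agent.H486.Hg Cfsg.Agent.H486.Sn Cfsg.Agent.Lib.Cores

universe u

section mat

variable {k : ℕ} {i j : Fin k}

/-- the transvection `v_i += v_j` -/
def TV (i j : Fin k) : Matrix (Fin k) (Fin k) (ZMod 2) := Matrix.transvection i j 1

theorem TV_mulVec (i j : Fin k) (v : Fin k → ZMod 2) :
    (TV i j).mulVec v = v + Pi.single i (v j) := by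
  rw [TV, Matrix.transvection, Matrix.add_mulVec, Matrix.one_mulVec]
  congr 1
  ext l
  simp only [Matrix.mulVec, dotProduct, Matrix.single_apply, Pi.single_apply, ite_and, eq_comm, _root_.ite_mul, _root_.one_mul, _root_.MulZeroClass.zero_mul, _root_.Finset.sum_ite_irrel, _root_.Finset.sum_ite_eq, _root_.Finset.mem_univ, ↓ _root_.reduceIte, _root_.Finset.sum_const_zero]

theorem zz (a : ZMod 2) : a + a = 0 := by
  have : ∀ a : ZMod 2, a + a = 0 := by decide
  exact this a

theorem z01 : ∀ a : ZMod 2, a = 0 ∨ a = 1 := by decide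

theorem TV_sq (hij : i ≠ j) : TV i j * TV i j = 1 := by
  rw [Matrix.ext_iff_mulVec]
  intro v
  rw [← Matrix.mulVec_mulVec, TV_mulVec, TV_mulVec, Matrix.one_mulVec]
  ext l
  simp only [Pi.add_apply, Pi.single_apply, hij.symm, if_false, add_zero]
  split_ifs
  · rw [add_assoc, zz, add_zero]
  · rw [add_zero, add_zero]

/-- the element of order 3 -/
def DD (i j : Fin k) : Matrix (Fin k) (Fin k) (ZMod 2) := TV i j * TV j i

theorem DD_cube (hij : i ≠ j) : DD i j * (DD i j * DD i j) = 1 := by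
  rw [Matrix.ext_iff_mulVec]
  intro v
  simp only [DD, ← Matrix.mulVec_mulVec, TV_mulVec, Matrix.one_mulVec]
  ext l
  by_cases hi : l = i
  · subst hi
    simp [Pi.single_apply, hij, hij.symm]
    generalize v l = a
    generalize v j = b
    revert a b
    decide
  · by_cases hj : l = j
    · subst hj
      simp [Pi.single_apply, hij, hij.symm]
      generalize v i = a
      generalize v l = b
      revert a b
      decide
    · simp [Pi.single_apply, hi, hj]

theorem DD_pow3 (hij : i ≠ j) : DD i j ^ 3 = 1 := by rw [pow_succ', pow_two, DD_cube hij]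

theorem TV_DD (hij : i ≠ j) : TV j i * DD i j * TV j i = DD i j ^ 2 := by
  have h1 : TV j i * DD i j * TV j i = TV j i * TV i j := by
    rw [DD, mul_assoc, mul_assoc, TV_sq hij.symm, mul_one]
  have h2 : DD i j * (TV j i * TV i j) = 1 := by
    rw [DD, mul_assoc, ← mul_assoc (TV j i), TV_sq hij.symm, one_mul, TV_sq hij]
  have h3 : DD i j ^ 2 * DD i j = 1 := by rw [← pow_succ, DD_pow3 hij]
  rw [h1]
  calc TV j i * TV i j = (DD i j ^ 2 * DD i j) * (TV j i * TV i j) := by rw [h3, one_mul]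
    _ = DD i j ^ 2 := by rw [mul_assoc, h2, mul_one]

theorem TV_DD_pow (hij : i ≠ j) (m : ℕ) : TV j i * DD i j ^ m * TV j i = DD i j ^ (2 * m) := by
  induction m with
  | zero => simp [TV_sq hij.symm]
  | succ m ih =>
    have h1 : TV j i * DD i j ^ (m + 1) * TV j i =
        (TV j i * DD i j ^ m * TV j i) * (TV j i * DD i j * TV j i) := by
      rw [pow_succ]
      simp only [mul_assoc]
      rw [← mul_assoc (TV j i) (TV j i), TV_sq hij.symm, one_mul]
    rw [h1, ih, TV_DD hij, ← pow_add]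
    congr 1

theorem DD_inv (hij : i ≠ j) (m : ℕ) : DD i j ^ m * DD i j ^ (2 * m) = 1 := by
  rw [← pow_add]
  have : m + 2 * m = 3 * m := by ring
  rw [this, pow_mul, DD_pow3 hij, one_pow]

end mat

section trick

variable {G : Type u} [Group G] [Finite G] {k : ℕ} {V : Subgroup G}

theorem actM_pow {c : V ≃* Multiplicative (Fin k → ZMod 2)} {g : G}
    {M : Matrix (Fin k) (Fin k) (ZMod 2)} [Fact (Nat.Prime 2)] (h : ActM c g M) (n : ℕ) : ActM c (g ^ n) (M ^ n) := by
  induction n with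
  | zero => rw [pow_zero, pow_zero]; exact ActM.one
  | succ n ih => rw [pow_succ, pow_succ]; exact ih.mul h

/-- the elements acting as a power of `DD` -/
def YD [Fact (Nat.Prime 2)] (c : V ≃* Multiplicative (Fin k → ZMod 2)) {i j : Fin k} (hij : i ≠ j) : Subgroup G where
  carrier := {g | ∃ m : ℕ, ActM c g (DD i j ^ m)}
  mul_mem' := by
    rintro g g' ⟨m, h⟩ ⟨m', h'⟩
    exact ⟨m + m', by rw [pow_add]; exact h.mul h'⟩
  one_mem' := ⟨0, by rw [pow_zero]; exact ActM.one⟩
  inv_mem' := by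
    rintro g ⟨m, h⟩
    exact ⟨2 * m, h.inv (DD_inv hij m)⟩

/-- an involution `y ≠ z` outside the cyclic 2-group `⟨t⟩` with involution `z` -/
theorem eq_of_mem_zpowers {t y : G} {a : ℕ} (ht : orderOf t = 2 ^ (a + 1)) (hy : y ^ 2 = 1) (hyt : y ∈ zpowers t) :
    y = 1 ∨ y = t ^ 2 ^ a := by
  obtain ⟨m, hm⟩ := (mem_powers_iff_mem_zpowers (x := t)).2 hyt
  have hm' : t ^ m = y := hm
  rw [← hm', ← pow_mul] at hy
  have h1 := orderOf_dvd_of_pow_eq_one hy
  rw [ht, pow_succ] at h1
  have h2 : 2 ^ a ∣ m := Nat.dvd_of_mul_dvd_mul_right (by norm_num) h1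
  obtain ⟨l, rfl⟩ := h2
  have h3 : (t ^ 2 ^ a) ^ 2 = 1 := by
    rw [← pow_mul, ← pow_succ, ← ht, pow_orderOf_eq_one]
  rw [← hm', pow_mul]
  rcases Nat.even_or_odd l with hl | hl
  · left
    obtain ⟨l', rfl⟩ := hl
    rw [← two_mul, pow_mul, h3, one_pow]
  · right
    obtain ⟨l', rfl⟩ := hl
    rw [pow_succ, pow_mul, h3, one_pow, one_mul]

/-- **The t-trick.** -/
theorem t_trick (hH : Homog G) (hV : ∀ x, x ∈ V ↔ x ^ 2 = 1) (hVc : ∀ x ∈ V, ∀ y ∈ V, x * y = y * x)
    [Fact (Nat.Prime 2)]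
    (c : V ≃* Multiplicative (Fin k → ZMod 2)) {i j : Fin k} (hij : i ≠ j)
    (hall : ∀ M N : Matrix (Fin k) (Fin k) (ZMod 2), M * N = 1 → ∃ g : G, ActM c g M) : False := by
  have hp3 : Fact (Nat.Prime 3) := ⟨Nat.prime_three⟩
  have hVn : ∀ g : G, ∀ x ∈ V, g * x * g⁻¹ ∈ V := by
    intro a x hx
    rw [hV] at hx ⊢
    rw [conj_pow, hx]; group
  obtain ⟨t₀, ht₀⟩ := hall (TV j i) (TV j i) (TV_sq hij.symm)
  have hDD : DD i j * DD i j ^ 2 = 1 := by rw [← pow_succ', DD_pow3 hij]
  obtain ⟨gD, hgD⟩ := hall (DD i j) (DD i j ^ 2) hDD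
  obtain ⟨T, hT⟩ := exists_isSyl 3 (YD c hij)
  have hYV : ∀ y ∈ YD c hij, ∀ x ∈ V, y * x * y⁻¹ ∈ V := fun y _ x hx => hVn y x hx
  have hab : ∀ y ∈ YD c hij, ∀ y' ∈ YD c hij, ∀ x ∈ V, y * (y' * x * y'⁻¹) * y⁻¹ = y' * (y * x * y⁻¹) * y'⁻¹ := by
    rintro y ⟨m, h⟩ y' ⟨m', h'⟩ x hx
    have h1 := (h.mul h') ⟨x, hx⟩
    have h2 := (h'.mul h) ⟨x, hx⟩
    rw [← pow_add] at h1 h2
    rw [add_comm m' m, ← h1] at h2
    have h3 : y * (y' * x * y'⁻¹) * y⁻¹ = y * y' * x * (y * y')⁻¹ := by group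
    have h4 : y' * (y * x * y⁻¹) * y'⁻¹ = y' * y * x * (y' * y)⁻¹ := by group
    rw [h3, h4]
    exact h2.symm
  have hτ : ∀ (g : G) (m : ℕ), ActM c g (DD i j ^ m) → ∃ τ ∈ T, ActM c τ (DD i j ^ m) := by
    intro g m hg
    obtain ⟨τ, hτ, hτ2⟩ := exists_act_eq (n := 1) hT hYV hab (g := g) ⟨m, hg⟩ (by
      intro x hx
      have h1 := actM_pow hg (3 ^ 1)
      rw [pow_one, ← pow_mul, mul_comm, pow_mul, DD_pow3 hij, one_pow] at h1
      rw [pow_one]
      exact h1.centralises x hx)
    exact ⟨τ, hτ, fun x => (hτ2 x x.2).trans (hg x)⟩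
  obtain ⟨δ, hδ, hδA⟩ := hτ gD 1 (by rwa [pow_one])
  rw [pow_one] at hδA
  have ht₀i : ActM c t₀⁻¹ (TV j i) := ht₀.inv (TV_sq hij.symm)
  have hY : cj t₀ T ≤ YD c hij := by
    intro x hx
    rw [mem_cj] at hx
    obtain ⟨m, h⟩ := hT.le hx
    have h1 := (ht₀.mul h).mul ht₀i
    rw [TV_DD_pow hij] at h1
    have h2 : t₀ * (t₀⁻¹ * x * t₀) * t₀⁻¹ = x := by group
    rw [h2] at h1
    exact ⟨_, h1⟩
  obtain ⟨y, ⟨m, hy⟩, hyT⟩ := hT.exists_conj_le hY (isPGroup_cj hT.isPGroup t₀)
  obtain ⟨s, hs, hsA⟩ := hτ y m hy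
  set t' : G := s * y⁻¹ * t₀ with ht'
  have ht'T : ∀ x ∈ T, t' * x * t'⁻¹ ∈ T := by
    intro x hx
    have h1 : t₀ * x * t₀⁻¹ ∈ cj t₀ T := by
      rw [mem_cj]
      have h2 : t₀⁻¹ * (t₀ * x * t₀⁻¹) * t₀ = x := by group
      rwa [h2]
    have h2 := hyT h1
    rw [mem_cj] at h2
    have h3 : s * (y⁻¹ * (t₀ * x * t₀⁻¹) * y) * s⁻¹ = t' * x * t'⁻¹ := by rw [ht']; group
    rw [← h3]
    exact T.mul_mem (T.mul_mem hs h2) (T.inv_mem hs)
  have ht'A : ActM c t' (TV j i) := by
    have h1 := (hsA.mul (hy.inv (DD_inv hij m))).mul ht₀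
    rwa [DD_inv hij, one_mul] at h1
  -- the 2-part
  obtain ⟨l, ⟨q, rfl⟩, r, hr⟩ := exists_p_part (p := 2) t' 1
  set t := t' ^ (1 + 2 ^ 1 * q) with ht
  have htA : ActM c t (TV j i) := by
    have h1 := actM_pow ht'A (1 + 2 ^ 1 * q)
    have h2 : TV j i ^ (1 + 2 ^ 1 * q) = TV j i := by
      rw [pow_one, pow_add, pow_one, pow_mul, pow_two, TV_sq hij.symm, one_pow, mul_one]
    rwa [h2] at h1
  have htT : t ∈ normalizer (T : Set G) := pow_mem (mem_normalizer_fin ht'T) _
  clear_value t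
  -- the basis vectors
  set vi : V := c.symm (Multiplicative.ofAdd (Pi.single i 1)) with hvi
  set vj : V := c.symm (Multiplicative.ofAdd (Pi.single j 1)) with hvj
  have hci : Multiplicative.toAdd (c vi) = Pi.single i 1 := by rw [hvi, MulEquiv.apply_symm_apply]; rfl
  have hcj : Multiplicative.toAdd (c vj) = Pi.single j 1 := by rw [hvj, MulEquiv.apply_symm_apply]; rfl
  have hvj1 : vj ≠ 1 := by
    intro h
    rw [h, map_one] at hcj
    have := congrFun hcj j
    simp only [_root_.toAdd_one, _root_.Pi.zero_apply, _root_.Pi.single_eq_same, _root_.zero_ne_one] at this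
  have htv : ∀ v : V, t * v * t⁻¹ = v ∨ t * v * t⁻¹ = v * vj := by
    intro v
    have h1 := htA v
    have h2 : mv c (TV j i) v = v ∨ mv c (TV j i) v = v * vj := by
      rcases z01 (Multiplicative.toAdd (c v) i) with h3 | h3
      · left
        apply c.injective
        apply Multiplicative.toAdd.injective
        rw [c_mv, TV_mulVec, h3, Pi.single_zero, add_zero]
      · right
        apply c.injective
        apply Multiplicative.toAdd.injective
        rw [c_mv, TV_mulVec, h3, map_mul, toAdd_mul, hcj]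
    rcases h2 with h2 | h2
    · left; rw [h1, h2]
    · right; rw [h1, h2]; rfl
  have htvi : t * vi * t⁻¹ = vi * vj := by
    have h1 := htA vi
    rw [h1]
    have h2 : mv c (TV j i) vi = vi * vj := by
      apply c.injective
      apply Multiplicative.toAdd.injective
      rw [c_mv, TV_mulVec, map_mul, toAdd_mul, hcj, hci, Pi.single_eq_same]
    rw [h2]; rfl
  have htvj : t * vj * t⁻¹ = vj := by
    have h1 := htA vj
    rw [h1]
    have h2 : mv c (TV j i) vj = vj := by
      apply c.injective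
      apply Multiplicative.toAdd.injective
      rw [c_mv, TV_mulVec, hcj, Pi.single_eq_of_ne hij, Pi.single_zero, add_zero]
    rw [h2]
  -- the involution of `⟨t⟩`
  have ht1 : t ≠ 1 := by
    intro h
    rw [h, one_mul, inv_one, mul_one] at htvi
    exact hvj1 (Subtype.ext (left_eq_mul.1 htvi))
  obtain ⟨b, hb, hb2⟩ := (Nat.dvd_prime_pow Nat.prime_two).1 (orderOf_dvd_of_pow_eq_one hr)
  have hb0 : b ≠ 0 := by
    rintro rfl
    rw [pow_zero] at hb2
    exact ht1 (orderOf_eq_one_iff.1 hb2)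
  obtain ⟨a, rfl⟩ := Nat.exists_eq_succ_of_ne_zero hb0
  set z := t ^ 2 ^ a with hz
  have hz2 : z ^ 2 = 1 := by
    rw [hz, ← pow_mul, ← pow_succ, ← Nat.succ_eq_add_one, ← hb2, pow_orderOf_eq_one]
  have hz1 : z ≠ 1 := by
    intro h
    have h1 := orderOf_dvd_of_pow_eq_one h
    rw [hb2, Nat.pow_dvd_pow_iff_le_right (by norm_num)] at h1
    omega
  have hzV : z ∈ V := (hV z).2 hz2
  -- `z` centralises `T`
  have hzT : z ∈ normalizer (T : Set G) := pow_mem htT _
  have hδz : δ * z * δ⁻¹ = z := by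
    have h1 : z * δ * z⁻¹ * δ⁻¹ ∈ T := T.mul_mem (mem_normalizer' hzT hδ) (T.inv_mem hδ)
    have h2 : z * δ * z⁻¹ * δ⁻¹ ∈ V := by
      have h3 : z * δ * z⁻¹ * δ⁻¹ = z * (δ * z⁻¹ * δ⁻¹) := by group
      rw [h3]
      exact V.mul_mem hzV (hVn δ _ (V.inv_mem hzV))
    have h3 : z * δ * z⁻¹ * δ⁻¹ = 1 := by
      obtain ⟨n, hn⟩ := hT.isPGroup ⟨_, h1⟩
      have hn' : (z * δ * z⁻¹ * δ⁻¹) ^ 3 ^ n = 1 := congrArg Subtype.val hn
      have h5 := pow_gcd_eq_one.2 ⟨hn', (hV _).1 h2⟩
      rwa [show Nat.gcd (3 ^ n) 2 = 1 from Nat.Coprime.pow_left n (by norm_num), pow_one] at h5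
    have h4 : δ * z * δ⁻¹ = (z * δ * z⁻¹ * δ⁻¹)⁻¹ * z := by group
    rw [h4, h3]; group
  -- `z = vj`
  have hzvj : z = vj := by
    by_contra hne
    have hvj2 : (vj : G) ^ 2 = 1 := (hV _).1 vj.2
    have hcomm : t * (vj : G) = vj * t := by
      have h1 : t * vj * t⁻¹ * t = vj * t := by rw [htvj]
      rwa [inv_mul_cancel_right] at h1
    have hcz : z * (vj : G) = vj * z := (show Commute t (vj : G) from hcomm).pow_left _
    have htz : t * z = z * t := (Commute.refl t).pow_right _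
    have hw2 : ((vj : G) * z) ^ 2 = 1 := by
      rw [(show Commute (vj : G) z from hcz.symm).mul_pow, hvj2, hz2, one_mul]
    have hvjo : orderOf (vj : G) = 2 := orderOf_eq_prime hvj2 (fun h => hvj1 (Subtype.ext h))
    have hw1 : (vj : G) * z ≠ 1 := by
      intro h
      apply hne
      have h1 : (vj : G) = z⁻¹ := eq_inv_of_mul_eq_one_left h
      have h2 : z⁻¹ = z := inv_eq_of_mul_eq_one_left (by rw [← pow_two]; exact hz2)
      rw [h1, h2]
    have hwo : orderOf ((vj : G) * z) = 2 := orderOf_eq_prime hw2 hw1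
    obtain ⟨e, he⟩ := SLT.exists_zpowers_equiv (hvjo.trans hwo.symm)
    have hv_nm : (vj : G) ∉ zpowers t := by
      intro h
      rcases eq_of_mem_zpowers hb2 hvj2 h with h1 | h1
      · exact hvj1 (Subtype.ext h1)
      · exact hne h1.symm
    have hw_nm : (vj : G) * z ∉ zpowers t := by
      intro h
      apply hv_nm
      have h1 : (vj : G) = (vj : G) * z * z⁻¹ := by group
      rw [h1]
      exact (zpowers t).mul_mem h ((zpowers t).inv_mem ((zpowers t).pow_mem (mem_zpowers t) _))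
    have hcomm2 : t * ((vj : G) * z) = vj * z * t := by
      rw [← mul_assoc, hcomm, mul_assoc, htz, mul_assoc]
    -- injectivity
    have hinj : ∀ {w : G} (e' : zpowers (vj : G) ≃* zpowers w), w ^ 2 = 1 → w ∉ zpowers t →
        (hc : ∀ (m : zpowers t) (n : zpowers (vj : G)), Commute ((zpowers t).subtype m)
          (((zpowers w).subtype.comp e'.toMonoidHom) n)) →
        Function.Injective (MonoidHom.noncommCoprod (zpowers t).subtype
          ((zpowers w).subtype.comp e'.toMonoidHom) hc) := by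
      intro w e' hw hwt hc
      rw [injective_iff_map_eq_one]
      rintro ⟨m, n⟩ hmn
      have h1 : (m : G) * (e' n : G) = 1 := hmn
      have h2 : (e' n : G) ∈ zpowers t := by
        rw [eq_inv_of_mul_eq_one_right h1]
        exact (zpowers t).inv_mem m.2
      have h3 : (e' n : G) = 1 := by
        obtain ⟨l, hl⟩ := (mem_powers_iff_mem_zpowers (x := w)).2 (e' n).2
        have hl' : w ^ l = (e' n : G) := hl
        rcases Nat.even_or_odd l with hl2 | hl2
        · obtain ⟨l', rfl⟩ := hl2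
          rw [← hl', ← two_mul, pow_mul, hw, one_pow]
        · exfalso
          obtain ⟨l', rfl⟩ := hl2
          rw [pow_succ, pow_mul, hw, one_pow, one_mul] at hl'
          rw [← hl'] at h2
          exact hwt h2
      have h4 : n = 1 := e'.injective (by rw [map_one]; exact Subtype.ext h3)
      rw [h3, mul_one] at h1
      exact Prod.ext (Subtype.ext h1) h4
    have hc1 : ∀ (m : zpowers t) (n : zpowers (vj : G)), Commute ((zpowers t).subtype m)
        (((zpowers (vj : G)).subtype.comp (MulEquiv.refl _).toMonoidHom) n) := by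
      rintro ⟨_, m, rfl⟩ ⟨_, n, rfl⟩
      exact ((show Commute t (vj : G) from hcomm).zpow_zpow m n)
    have hc2 : ∀ (m : zpowers t) (n : zpowers (vj : G)), Commute ((zpowers t).subtype m)
        (((zpowers ((vj : G) * z)).subtype.comp e.toMonoidHom) n) := by
      rintro ⟨_, m, rfl⟩ n
      obtain ⟨l, hl⟩ := (e n).2
      have hl' : ((vj : G) * z) ^ l = (e n : G) := hl
      change Commute (t ^ m) (e n : G)
      rw [← hl']
      exact ((show Commute t ((vj : G) * z) from hcomm2).zpow_zpow m l)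
    have hi1 := hinj (MulEquiv.refl _) hvj2 hv_nm hc1
    have hi2 := hinj e hw2 hw_nm hc2
    obtain ⟨φ, hφ⟩ := hH _ _ ((MonoidHom.ofInjective hi1).symm.trans (MonoidHom.ofInjective hi2))
    have hφq : ∀ q, φ (MonoidHom.noncommCoprod _ _ hc1 q) = MonoidHom.noncommCoprod _ _ hc2 q := by
      intro q
      have h1 := hφ (MonoidHom.ofInjective hi1 q)
      rw [MulEquiv.trans_apply, MulEquiv.symm_apply_apply] at h1
      exact h1
    have hφt : φ t = t := by
      have h1 := hφq (⟨t, mem_zpowers t⟩, 1)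
      have h2 : MonoidHom.noncommCoprod _ _ hc1 ((⟨t, mem_zpowers t⟩ : zpowers t), (1 : zpowers (vj : G))) = t := by
        rw [MonoidHom.noncommCoprod_apply, map_one, mul_one]; rfl
      have h3 : MonoidHom.noncommCoprod _ _ hc2 ((⟨t, mem_zpowers t⟩ : zpowers t), (1 : zpowers (vj : G))) = t := by
        rw [MonoidHom.noncommCoprod_apply, map_one, mul_one]; rfl
      rwa [h2, h3] at h1
    have hφv : φ (vj : G) = vj * z := by
      have h1 := hφq (1, ⟨vj, mem_zpowers (vj : G)⟩)
      have h2 : MonoidHom.noncommCoprod _ _ hc1 ((1 : zpowers t), (⟨vj, mem_zpowers (vj : G)⟩ : zpowers (vj : G))) =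
          vj := by
        rw [MonoidHom.noncommCoprod_apply, map_one, one_mul]; rfl
      have h3 : MonoidHom.noncommCoprod _ _ hc2 ((1 : zpowers t), (⟨vj, mem_zpowers (vj : G)⟩ : zpowers (vj : G))) =
          vj * z := by
        rw [MonoidHom.noncommCoprod_apply, map_one, one_mul]
        exact he
      rwa [h2, h3] at h1
    -- `φ vj ∈ {1, vj}`
    have hφvi : φ (vi : G) ∈ V := by
      rw [hV, ← map_pow, (hV _).1 vi.2, map_one]
    have h1 := congrArg φ htvi
    rw [map_mul, map_mul, map_mul, map_inv, hφt, hφv] at h1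
    rcases htv ⟨φ vi, hφvi⟩ with h2 | h2
    · rw [h1] at h2
      exact hw1 (mul_eq_left.1 h2)
    · rw [h1] at h2
      have h3 := mul_left_cancel h2
      exact hz1 (mul_eq_left.1 h3)
  -- contradiction: `DD` moves `e_j`
  have h1 := hδA vj
  rw [← hzvj, hδz, hzvj] at h1
  have h2 : mv c (DD i j) vj = vj := (Subtype.ext h1).symm
  have h3 := congrArg (fun x => Multiplicative.toAdd (c x)) h2
  simp only [c_mv, hcj] at h3
  rw [DD, ← Matrix.mulVec_mulVec, TV_mulVec, TV_mulVec] at h3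
  have h4 := congrFun h3 i
  simp only [hij, _root_.ne_eq, _root_.not_false_eq_true, _root_.Pi.single_eq_of_ne, _root_.Pi.single_zero, _root_.add_zero, _root_.Pi.add_apply, _root_.Pi.single_eq_same, _root_.Pi.zero_apply, _root_.zero_add, _root_.one_ne_zero] at h4

end trick

end Cfsg.Agent.H486.Hg.Rad
end

-- part: OddHalf/E2/Sep
section
/-!
# Separation in elementary abelian 2-groups (helper963)

`exists_sep`: in a group of exponent 2, an element outside a subgroup `L` is separated from `L` by a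
homomorphism to `{±1}`.
-/

set_option autoImplicit false
set_option linter.style.haveILetI false

namespace Cfsg.Agent.OddHalf.E2

open Subgroup

/-- separation by a homomorphism to `ℤˣ` -/
theorem exists_sep {B : Type*} [Group B] (hB : ∀ b : B, b * b = 1) (L : Subgroup B) {c : B} (hc : c ∉ L) :
    ∃ φ : B →* ℤˣ, (∀ l ∈ L, φ l = 1) ∧ φ c = -1 := by
  have hinv : ∀ b : B, b⁻¹ = b := fun b => inv_eq_of_mul_eq_one_right (hB b)
  have hcomm : ∀ a b : B, a * b = b * a := by
    intro a b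
    have h1 := hinv (a * b)
    rw [mul_inv_rev, hinv, hinv] at h1
    exact h1.symm
  letI : CommGroup B := { ‹Group B› with mul_comm := hcomm }
  letI : Module (ZMod 2) (Additive B) := AddCommGroup.zmodModule (n := 2) (by
    intro x
    rw [two_nsmul]
    exact congrArg Additive.ofMul (hB x.toMul))
  let p : Submodule (ZMod 2) (Additive B) := AddSubgroup.toZModSubmodule 2 (Subgroup.toAddSubgroup L)
  have hp : Additive.ofMul c ∉ p := by
    intro h
    exact hc h
  obtain ⟨f, hf1, hf2⟩ := p.exists_dual_map_eq_bot_of_notMem hp inferInstance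
  refine ⟨{ toFun := fun b => (-1 : ℤˣ) ^ (f (Additive.ofMul b)), map_one' := ?_, map_mul' := ?_ }, ?_, ?_⟩
  · rw [ofMul_one, map_zero]; exact uzpow_zero _
  · intro a b
    rw [ofMul_mul, map_add, uzpow_add]
  · intro l hl
    have h1 : f (Additive.ofMul l) = 0 := by
      have h2 : f (Additive.ofMul l) ∈ p.map f := ⟨Additive.ofMul l, hl, rfl⟩
      rw [hf2] at h2
      exact (Submodule.mem_bot _).1 h2
    show (-1 : ℤˣ) ^ (f (Additive.ofMul l)) = 1
    rw [h1]; exact uzpow_zero _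
  · have h1 : f (Additive.ofMul c) = 1 := by
      have : ∀ x : ZMod 2, x ≠ 0 → x = 1 := by decide
      exact this _ hf1
    show (-1 : ℤˣ) ^ (f (Additive.ofMul c)) = -1
    rw [h1]; exact uzpow_one _

end Cfsg.Agent.OddHalf.E2
end

-- part: H868/QuadCount
section
/-!
# Quadratic maps between elementary abelian 2-groups with constant fibres (helper868, for S3924)

`M`, `V` finite elementary abelian 2-groups (written multiplicatively), `q : M → V` a quadratic map with
`q m = 1 ↔ m = 1` such that all the fibres over the elements `v ≠ 1` have the same size. Then either `q` is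
injective, or `|M| = |V|²` and `|ker B(x, ·)| = |V|` for every `x ≠ 1` (`B` the polar form).
-/

set_option autoImplicit false

namespace Cfsg.Agent.H868.Quad

open Subgroup Finset

variable {M V : Type*} [CommGroup M] [CommGroup V]

/-- the polar form of `q` -/
def B (q : M → V) (x y : M) : V := q (x * y) * (q x * q y)

/-- an anisotropic quadratic map between elementary abelian 2-groups -/
structure QM (q : M → V) : Prop where
  two : ∀ m : M, m * m = 1
  twoV : ∀ v : V, v * v = 1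
  q_one : q 1 = 1
  one : ∀ m, q m = 1 → m = 1
  bil : ∀ x y z, B q (x * y) z = B q x z * B q y z

theorem B_comm (q : M → V) (x y : M) : B q x y = B q y x := by
  unfold B; rw [mul_comm x y, mul_comm (q x)]

namespace QM

variable {q : M → V} (h : QM q)
include h

theorem bil' (x y z : M) : B q x (y * z) = B q x y * B q x z := by
  rw [B_comm, h.bil, B_comm q y, B_comm q z]

/-- `B x` as a homomorphism -/
def beta (x : M) : M →* V where
  toFun := B q x
  map_one' := by
    have h1 := h.bil' x 1 1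
    rw [mul_one] at h1
    exact left_eq_mul.1 h1
  map_mul' := h.bil' x

theorem beta_apply (x y : M) : h.beta x y = B q x y := rfl

theorem B_self (x : M) : B q x x = 1 := by
  unfold B; rw [h.two, h.q_one, h.twoV, one_mul]

theorem q_mul (x y : M) : q (x * y) = q x * q y * B q x y := by
  unfold B
  have h1 := h.twoV (q x * q y)
  calc q (x * y) = q (x * y) * ((q x * q y) * (q x * q y)) := by rw [h1, mul_one]
    _ = q x * q y * (q (x * y) * (q x * q y)) := by
        rw [← mul_assoc, mul_comm]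

/-- the radical of `χ ∘ B` -/
def Z (χ : V →* ℤˣ) : Subgroup M where
  carrier := {m | ∀ x, χ (B q x m) = 1}
  one_mem' := fun x => by rw [show B q x 1 = 1 from (h.beta x).map_one, map_one]
  mul_mem' := by
    intro a b ha hb x
    rw [h.bil', map_mul, ha x, hb x, one_mul]
  inv_mem' := by
    intro a ha x
    rw [show B q x a⁻¹ = (B q x a)⁻¹ from (h.beta x).map_inv a, map_inv, ha x, inv_one]

theorem mem_Z {χ : V →* ℤˣ} {m : M} : m ∈ h.Z χ ↔ ∀ x, χ (B q x m) = 1 := Iff.rfl

/-- `χ ∘ q` on the radical -/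
def psi (χ : V →* ℤˣ) : h.Z χ →* ℤ where
  toFun m := (χ (q m) : ℤ)
  map_one' := by rw [OneMemClass.coe_one, h.q_one, map_one, Units.val_one]
  map_mul' := by
    intro a b
    rw [Subgroup.coe_mul, h.q_mul, map_mul, map_mul, b.2 a, mul_one, Units.val_mul]

theorem sum_Z [Finite M] (χ : V →* ℤˣ) [Fintype M] [DecidablePred (· ∈ h.Z χ)] :
    (∑ m : M, if m ∈ h.Z χ then (χ (q m) : ℤ) else 0) = 0 ∨
      (∑ m : M, if m ∈ h.Z χ then (χ (q m) : ℤ) else 0) = Nat.card (h.Z χ) := by
  classical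
  have h1 : (∑ m : M, if m ∈ h.Z χ then (χ (q m) : ℤ) else 0) = ∑ z : h.Z χ, h.psi χ z := by
    rw [← Finset.sum_filter, Finset.sum_subtype (p := (· ∈ h.Z χ))]
    · rfl
    · intro x; simp
  rw [h1, sum_hom_units, Nat.card_eq_fintype_card]
  split_ifs
  · exact Or.inr rfl
  · exact Or.inl (by simp)

theorem sum_sq [Fintype M] (χ : V →* ℤˣ) [DecidablePred (· ∈ h.Z χ)] :
    (∑ m : M, (χ (q m) : ℤ)) ^ 2 =
      Nat.card M * ∑ m : M, if m ∈ h.Z χ then (χ (q m) : ℤ) else 0 := by
  classical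
  set a : M → ℤ := fun m => (χ (q m) : ℤ) with ha
  have h1 : ∀ m k : M, a m * a (m * k) = a k * (χ (B q k m) : ℤ) := by
    intro m k
    have h2 : χ (q m) * χ (q (m * k)) = χ (q k) * χ (B q k m) := by
      rw [← map_mul, ← map_mul, h.q_mul, ← mul_assoc, ← mul_assoc, h.twoV, one_mul, B_comm]
    have h3 := congrArg (Units.val) h2
    rw [Units.val_mul, Units.val_mul] at h3
    exact h3
  have h2 : ∀ k : M, ∑ m : M, (χ (B q k m) : ℤ) = if k ∈ h.Z χ then (Nat.card M : ℤ) else 0 := by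
    intro k
    have h3 := sum_hom_units ((Units.coeHom ℤ).comp (χ.comp (h.beta k)))
    have h4 : ∑ m : M, (χ (B q k m) : ℤ) = ∑ m : M, ((Units.coeHom ℤ).comp (χ.comp (h.beta k))) m := rfl
    rw [h4, h3]
    have h5 : ((Units.coeHom ℤ).comp (χ.comp (h.beta k)) = 1) ↔ k ∈ h.Z χ := by
      rw [h.mem_Z, MonoidHom.ext_iff]
      refine forall_congr' fun x => ?_
      change ((χ (B q k x) : ℤ) = 1) ↔ _
      rw [Units.val_eq_one, B_comm]
    by_cases h6 : k ∈ h.Z χ
    · rw [if_pos (h5.2 h6), if_pos h6, Nat.card_eq_fintype_card]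
    · rw [if_neg (fun h7 => h6 (h5.1 h7)), if_neg h6, Nat.cast_zero]
  calc (∑ m : M, a m) ^ 2 = ∑ m : M, ∑ k : M, a m * a k := by rw [sq, Finset.sum_mul_sum]
    _ = ∑ m : M, ∑ k : M, a m * a (m * k) := by
        refine Finset.sum_congr rfl fun m _ => ?_
        exact (Equiv.sum_comp (Equiv.mulLeft m) (fun k => a m * a k)).symm
    _ = ∑ m : M, ∑ k : M, a k * (χ (B q k m) : ℤ) := by
        refine Finset.sum_congr rfl fun m _ => Finset.sum_congr rfl fun k _ => h1 m k
    _ = ∑ k : M, a k * ∑ m : M, (χ (B q k m) : ℤ) := by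
        rw [Finset.sum_comm]
        refine Finset.sum_congr rfl fun k _ => ?_
        rw [Finset.mul_sum]
    _ = _ := by
        rw [Finset.mul_sum]
        refine Finset.sum_congr rfl fun k _ => ?_
        rw [h2 k]
        split_ifs
        · rw [mul_comm]
        · rw [mul_zero, mul_zero]

end QM

theorem arith {r s j N : ℕ} (hr : 1 ≤ r) (hN : 2 ≤ N) (h1 : 2 ^ s + N = 1 + N * 2 ^ r)
    (h2 : (N - 1) ^ 2 = 2 ^ s * 2 ^ j) : s = 2 * r ∧ j = 0 := by
  obtain ⟨n, rfl⟩ : ∃ n, N = n + 1 := ⟨N - 1, by omega⟩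
  rw [Nat.add_sub_cancel, ← pow_add] at h2
  obtain ⟨k, hk, rfl⟩ := (Nat.dvd_prime_pow Nat.prime_two).1 (h2 ▸ dvd_pow_self n (two_ne_zero))
  rw [← pow_mul] at h2
  have h3 := Nat.pow_right_injective (le_refl 2) h2
  have h4 : 2 ^ s + 2 ^ k = 2 ^ (k + r) + 2 ^ r := by
    rw [pow_add]; linarith only [h1]
  rcases lt_trichotomy k r with h | h | h
  · exfalso
    rcases Nat.lt_or_ge k s with h5 | h5
    · have e1 : 2 ^ (k + 1) ∣ 2 ^ s := pow_dvd_pow 2 h5
      have e2 : 2 ^ (k + 1) ∣ 2 ^ (k + r) := pow_dvd_pow 2 (by omega)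
      have e3 : 2 ^ (k + 1) ∣ 2 ^ r := pow_dvd_pow 2 h
      have e4 : 2 ^ (k + 1) ∣ 2 ^ k := by
        rw [← Nat.dvd_add_right e1, h4]
        exact dvd_add e2 e3
      have := (Nat.pow_dvd_pow_iff_le_right (by norm_num)).1 e4
      omega
    · have e1 : 2 ^ s ≤ 2 ^ k := Nat.pow_le_pow_right (by norm_num) h5
      have e2 : 2 ^ (k + 1) ≤ 2 ^ r := Nat.pow_le_pow_right (by norm_num) h
      have e3 : 0 < 2 ^ (k + r) := by positivity
      rw [pow_succ] at e2
      omega
  · subst h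
    have h5 : 2 ^ s = 2 ^ (k + k) := by omega
    have h6 := Nat.pow_right_injective (le_refl 2) h5
    change s = k + k at h6
    change k * 2 = s + j at h3
    omega
  · exfalso
    rcases Nat.lt_or_ge r s with h5 | h5
    · have e1 : 2 ^ (r + 1) ∣ 2 ^ s := pow_dvd_pow 2 h5
      have e2 : 2 ^ (r + 1) ∣ 2 ^ (k + r) := pow_dvd_pow 2 (by omega)
      have e3 : 2 ^ (r + 1) ∣ 2 ^ k := pow_dvd_pow 2 h
      have e4 : 2 ^ (r + 1) ∣ 2 ^ r := by
        rw [← Nat.dvd_add_right e2, ← h4]
        exact dvd_add e1 e3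
      have := (Nat.pow_dvd_pow_iff_le_right (by norm_num)).1 e4
      omega
    · have e1 : 2 ^ s ≤ 2 ^ r := Nat.pow_le_pow_right (by norm_num) h5
      have e2 : 2 ^ (k + 1) ≤ 2 ^ (k + r) := Nat.pow_le_pow_right (by norm_num) (by omega)
      have e3 : 0 < 2 ^ k := by positivity
      rw [pow_succ] at e2
      omega

namespace QM

variable {q : M → V} (h : QM q)
include h

theorem sum_fib [Fintype M] [Fintype V] [DecidableEq V] {N : ℕ}
    (hN : ∀ v : V, v ≠ 1 → (univ.filter fun m => q m = v).card = N) (f : V → ℤ) :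
    ∑ m : M, f (q m) = f 1 + N * (∑ v : V, f v - f 1) := by
  classical
  have h1 : ∑ m : M, f (q m) = ∑ v : V, ((univ.filter fun m => q m = v).card : ℤ) * f v := by
    rw [← Finset.sum_fiberwise' (univ : Finset M) q f]
    refine Finset.sum_congr rfl fun v _ => ?_
    rw [Finset.sum_const, nsmul_eq_mul]
  have h2 : (univ.filter fun m => q m = 1) = {1} := by
    ext m
    simp only [mem_filter, mem_univ, true_and, mem_singleton]
    exact ⟨h.one m, fun e => e ▸ h.q_one⟩
  rw [h1, ← Finset.add_sum_erase _ _ (mem_univ (1 : V)), h2, card_singleton, Nat.cast_one, one_mul]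
  congr 1
  rw [← Finset.sum_erase_eq_sub (mem_univ (1 : V)), Finset.mul_sum]
  refine Finset.sum_congr rfl fun v hv => ?_
  rw [hN v (Finset.ne_of_mem_erase hv)]

/-- The dichotomy: `q` is injective or `|M| = |V|²` and the radicals are trivial. -/
theorem dichotomy [Finite M] [Finite V]
    (hN : ∀ v w : V, v ≠ 1 → w ≠ 1 → Nat.card {m // q m = v} = Nat.card {m // q m = w}) :
    Function.Injective q ∨ (Nat.card M = Nat.card V ^ 2 ∧ ∀ χ : V →* ℤˣ, χ ≠ 1 → h.Z χ = ⊥) := by
  classical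
  cases nonempty_fintype M
  cases nonempty_fintype V
  by_cases hM : Subsingleton M
  · exact Or.inl (Function.injective_of_subsingleton q)
  rw [not_subsingleton_iff_nontrivial] at hM
  obtain ⟨m0, hm0⟩ := exists_ne (1 : M)
  have hv0 : q m0 ≠ 1 := fun e => hm0 (h.one _ e)
  set v0 := q m0 with hv0'
  set N := (univ.filter fun m => q m = v0).card with hNdef
  have hN' : ∀ v : V, v ≠ 1 → (univ.filter fun m => q m = v).card = N := by
    intro v hv
    have h1 := hN v v0 hv hv0
    rw [Nat.card_eq_fintype_card, Nat.card_eq_fintype_card, Fintype.card_subtype, Fintype.card_subtype] at h1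
    exact h1
  have hNpos : 0 < N := by
    apply Finset.card_pos.2
    exact ⟨m0, by simp [hv0']⟩
  rcases Nat.lt_or_ge 1 N with hN2 | hN1
  · right
    -- `V` and `M` are 2-groups
    have pV : IsPGroup 2 V := fun v => ⟨1, by rw [pow_one, sq, h.twoV]⟩
    have pM : IsPGroup 2 M := fun m => ⟨1, by rw [pow_one, sq, h.two]⟩
    have : Fact (Nat.Prime 2) := ⟨Nat.prime_two⟩
    obtain ⟨r, hr⟩ := IsPGroup.iff_card.1 pV
    obtain ⟨s, hs⟩ := IsPGroup.iff_card.1 pM
    have hr1 : 1 ≤ r := by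
      by_contra hr0
      have hr0' : r = 0 := by omega
      rw [hr0', pow_zero, Nat.card_eq_one_iff_unique] at hr
      exact hv0 (hr.1.elim _ _)
    have hcard : 2 ^ s + N = 1 + N * 2 ^ r := by
      have h1 := h.sum_fib hN' (fun _ => 1)
      simp only [Finset.sum_const, Finset.card_univ, nsmul_eq_mul, mul_one] at h1
      rw [← Nat.card_eq_fintype_card, ← Nat.card_eq_fintype_card, hr, hs] at h1
      push_cast at h1
      have h2 : ((2 ^ s + N : ℕ) : ℤ) = ((1 + N * 2 ^ r : ℕ) : ℤ) := by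
        push_cast
        linarith only [h1]
      exact_mod_cast h2
    have main : ∀ χ : V →* ℤˣ, χ ≠ 1 → s = 2 * r ∧ h.Z χ = ⊥ := by
      intro χ hχ
      obtain ⟨j, hj⟩ := IsPGroup.iff_card.1 (pM.to_subgroup (h.Z χ))
      have hS : (∑ m : M, (χ (q m) : ℤ)) = 1 - N := by
        have h1 := h.sum_fib hN' (fun v => (χ v : ℤ))
        have h2 : ∑ v : V, (χ v : ℤ) = 0 := by
          have h3 := sum_hom_units ((Units.coeHom ℤ).comp χ)
          rw [if_neg] at h3
          · exact_mod_cast h3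
          · intro h4
            apply hχ
            ext v
            have := DFunLike.congr_fun h4 v
            exact this
        rw [h2] at h1
        rw [h1, map_one, Units.val_one]
        ring
      have hsq := h.sum_sq χ
      rw [hS] at hsq
      have hne : ((1 : ℤ) - N) ^ 2 ≠ 0 := by
        have : (1 : ℤ) - N ≠ 0 := by
          intro h5
          have : (N : ℤ) = 1 := by linarith only [h5]
          have : N = 1 := by exact_mod_cast this
          omega
        exact pow_ne_zero 2 this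
      rcases h.sum_Z χ with h5 | h5
      · rw [h5, mul_zero] at hsq
        exact absurd hsq hne
      · rw [h5, hs, hj] at hsq
        have h6 : (N - 1) ^ 2 = 2 ^ s * 2 ^ j := by
          have h7 : (((N - 1 : ℕ) : ℤ)) = (N : ℤ) - 1 := by
            rw [Nat.cast_sub hN2.le, Nat.cast_one]
          have h8 : (((N - 1) ^ 2 : ℕ) : ℤ) = ((2 ^ s * 2 ^ j : ℕ) : ℤ) := by
            rw [Nat.cast_pow, h7]
            push_cast at hsq ⊢
            rw [← hsq]
            ring
          exact_mod_cast h8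
        obtain ⟨h9, h10⟩ := arith hr1 hN2 hcard h6
        refine ⟨h9, ?_⟩
        rw [h10, pow_zero] at hj
        exact Subgroup.card_eq_one.1 hj
    refine ⟨?_, fun χ hχ => (main χ hχ).2⟩
    obtain ⟨χ, -, hχ⟩ := Cfsg.Agent.OddHalf.E2.exists_sep h.twoV (⊥ : Subgroup V) (c := v0)
      (by rw [mem_bot]; exact hv0)
    have hχ1 : χ ≠ 1 := by
      rintro rfl
      rw [MonoidHom.one_apply] at hχ
      exact absurd hχ (by decide)
    rw [hs, hr, (main χ hχ1).1, ← pow_mul, mul_comm]
  · left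
    have hN1' : N = 1 := by omega
    intro a b hab
    by_cases ha : q a = 1
    · rw [h.one a ha, h.one b (hab ▸ ha)]
    · have h1 := hN' (q a) ha
      rw [hN1', Finset.card_eq_one] at h1
      obtain ⟨c, hc⟩ := h1
      have h2 : a ∈ (univ.filter fun m => q m = q a) := by simp
      have h3 : b ∈ (univ.filter fun m => q m = q a) := by simp [hab]
      rw [hc, mem_singleton] at h2 h3
      rw [h2, h3]

/-- In the second case the kernels of the maps `B(x, ·)` have order `|V|`. -/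
theorem card_ker [Finite M] [Finite V] (hc : Nat.card M = Nat.card V ^ 2)
    (hZ : ∀ χ : V →* ℤˣ, χ ≠ 1 → h.Z χ = ⊥) {x : M} (hx : x ≠ 1) : Nat.card (h.beta x).ker = Nat.card V := by
  have hs : (h.beta x).range = ⊤ := by
    by_contra hr
    have h1 : ∃ c : V, c ∉ (h.beta x).range := by
      by_contra h2
      push Not at h2
      exact hr (eq_top_iff.2 fun c _ => h2 c)
    obtain ⟨c, hc⟩ := h1
    obtain ⟨χ, hχ, hχc⟩ := Cfsg.Agent.OddHalf.E2.exists_sep h.twoV (h.beta x).range hc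
    have hχ1 : χ ≠ 1 := by
      rintro rfl
      rw [MonoidHom.one_apply] at hχc
      exact absurd hχc (by decide)
    have h3 : x ∈ h.Z χ := fun y => by
      rw [B_comm]
      exact hχ _ ⟨y, rfl⟩
    rw [hZ χ hχ1, mem_bot] at h3
    exact hx h3
  have h1 := (h.beta x).ker.card_mul_index
  rw [Subgroup.index_ker, hs, Subgroup.card_top, hc, sq] at h1
  exact Nat.eq_of_mul_eq_mul_right Nat.card_pos h1

end QM

end Cfsg.Agent.H868.Quad
end

-- part: Characters/CNFocal
section
/-!
# Focal subgroup theorem: a subgroup controlling the fusion of a Sylow subgroup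
-/

set_option autoImplicit false

namespace Cfsg.Agent.Characters.CNFocal

open Subgroup

/-- If `M` contains the Sylow subgroup `P` and every element conjugating a non-identity element
of `P` into `P`, then `P ⊓ G' ≤ M'`. -/
theorem inf_commutator_le_of_controls {G : Type*} [Group G] [Finite G] (p : ℕ) [Fact p.Prime]
    (P : Sylow p G) (M : Subgroup G) (hPM : (P : Subgroup G) ≤ M)
    (hctrl : ∀ x ∈ (P : Subgroup G), x ≠ 1 → ∀ g : G, g * x * g⁻¹ ∈ (P : Subgroup G) → g ∈ M) :
    commutator G ⊓ (P : Subgroup G) ≤ ⁅M, M⁆ := by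
  rw [commutator_inf_eq_focalSubgroup P, focalSubgroup_def, closure_le]
  rintro g ⟨hg, x, hx, u, rfl⟩
  by_cases hx1 : x = 1
  · subst hx1
    rw [commutatorElement_one_left]
    exact one_mem _
  · have hu : u ∈ M := by
      refine hctrl x⁻¹ (inv_mem hx) (inv_ne_one.2 hx1) u ?_
      have h1 := mul_mem (inv_mem hx) hg
      rw [commutatorElement_def] at h1
      have h2 : x⁻¹ * (x * u * x⁻¹ * u⁻¹) = u * x⁻¹ * u⁻¹ := by group
      rwa [h2] at h1
    exact commutator_mem_commutator (hPM hx) hu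

/-- If moreover `G` is perfect, then `P ≤ M'`. -/
theorem le_commutator_of_controls {G : Type*} [Group G] [Finite G] (p : ℕ) [Fact p.Prime]
    (P : Sylow p G) (hGc : commutator G = ⊤) (M : Subgroup G) (hPM : (P : Subgroup G) ≤ M)
    (hctrl : ∀ x ∈ (P : Subgroup G), x ≠ 1 → ∀ g : G, g * x * g⁻¹ ∈ (P : Subgroup G) → g ∈ M) :
    (P : Subgroup G) ≤ ⁅M, M⁆ := by
  have h := inf_commutator_le_of_controls p P M hPM hctrl
  rwa [hGc, top_inf_eq] at h

end Cfsg.Agent.Characters.CNFocal
end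

-- part: H868/QuadGroup
section
/-!
# Perfect groups preserving a quadratic map with all kernels of order `|V|`, `|M| = |V|²` (helper868, for S3924)
-/

set_option autoImplicit false

namespace Cfsg.Agent.H868.Quad

open Subgroup

variable {M V : Type*} [CommGroup M] [CommGroup V]

/-- fixed points of an automorphism -/
def C (g : MulAut M) : Subgroup M where
  carrier := {m | g m = m}
  one_mem' := map_one g
  mul_mem' := by
    intro a b (ha : g a = a) (hb : g b = b)
    change g (a * b) = a * b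
    rw [map_mul, ha, hb]
  inv_mem' := by
    intro a (ha : g a = a)
    change g a⁻¹ = a⁻¹
    rw [map_inv, ha]

theorem mem_C {g : MulAut M} {m : M} : m ∈ C g ↔ g m = m := Iff.rfl

/-- `m ↦ m * g m` -/
def delta (g : MulAut M) : M →* M := MonoidHom.id M * g.toMonoidHom

theorem delta_apply (g : MulAut M) (m : M) : delta g m = m * g m := rfl

theorem eq_of_mul_eq_one' (h2 : ∀ m : M, m * m = 1) {a b : M} (h : a * b = 1) : b = a := by
  have h3 : a * b = a * a := by rw [h, h2]
  exact mul_left_cancel h3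

theorem ker_delta (h2 : ∀ m : M, m * m = 1) (g : MulAut M) : (delta g).ker = C g := by
  ext m
  rw [MonoidHom.mem_ker, delta_apply, mem_C]
  constructor
  · intro h
    exact eq_of_mul_eq_one' h2 h
  · intro h
    rw [h, h2]

theorem card_C_mul [Finite M] (h2 : ∀ m : M, m * m = 1) (g : MulAut M) :
    Nat.card (C g) * Nat.card (delta g).range = Nat.card M := by
  rw [← ker_delta h2, ← Subgroup.index_ker]
  exact (delta g).ker.card_mul_index

/-- A perfect solvable subgroup is trivial. -/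
theorem bot_of_perfect {G : Type*} [Group G] (H : Subgroup G) (hs : Group.IsSolvable H) (h : ⁅H, H⁆ = H) :
    H = ⊥ := by
  by_contra hne
  have hnt : Nontrivial H := (Subgroup.nontrivial_iff_ne_bot H).2 hne
  have h1 := Group.IsSolvable.commutator_lt_top_of_nontrivial H
  have h2 : (commutator H).map H.subtype = (⊤ : Subgroup H).map H.subtype := by
    rw [Subgroup.map_subtype_commutator, h, ← MonoidHom.range_eq_map, Subgroup.range_subtype]
  exact h1.ne (Subgroup.map_injective H.subtype_injective h2)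

namespace QM

variable {q : M → V} (h : QM q)

theorem B_map {g : MulAut M} (hg : ∀ m, q (g m) = q m) (x y : M) : B q (g x) (g y) = B q x y := by
  unfold B
  rw [← map_mul, hg, hg, hg]

include h

theorem B_C_range {g : MulAut M} (hg : ∀ m, q (g m) = q m) {c d : M} (hc : c ∈ C g) (hd : d ∈ (delta g).range) :
    B q c d = 1 := by
  obtain ⟨m, rfl⟩ := hd
  rw [delta_apply, h.bil']
  have h1 : B q c (g m) = B q c m := by
    have h2 := B_map hg c m
    rwa [mem_C.1 hc] at h2
  rw [h1, h.twoV]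

theorem C_le {g : MulAut M} (hg : ∀ m, q (g m) = q m) {d : M} (hd : d ∈ (delta g).range) :
    C g ≤ (h.beta d).ker := by
  intro c hc
  rw [MonoidHom.mem_ker, h.beta_apply, B_comm]
  exact h.B_C_range hg hc hd

theorem range_le {g : MulAut M} (hg : ∀ m, q (g m) = q m) {c : M} (hc : c ∈ C g) :
    (delta g).range ≤ (h.beta c).ker := by
  intro d hd
  rw [MonoidHom.mem_ker, h.beta_apply]
  exact h.B_C_range hg hc hd

theorem self_mem_ker (x : M) : x ∈ (h.beta x).ker := by
  rw [MonoidHom.mem_ker, h.beta_apply, h.B_self]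

omit [CommGroup V] h in
theorem card_lt {A K : Subgroup M} [Finite M] (hAK : A ≤ K) {x : M} (hx : x ∈ K) (hxA : x ∉ A) :
    Nat.card A < Nat.card K := by
  by_contra hlt
  exact hxA ((Subgroup.eq_of_le_of_card_ge hAK (not_lt.1 hlt)) ▸ hx)

/-- Automorphisms of odd order with a fixed point `≠ 1` are trivial. -/
theorem eq_one_of_odd [Finite M] [Finite V] (hc : Nat.card M = Nat.card V ^ 2)
    (hk : ∀ x : M, x ≠ 1 → Nat.card (h.beta x).ker = Nat.card V) {g : MulAut M} (hg : ∀ m, q (g m) = q m)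
    {n : ℕ} (hn : Odd n) (hgn : g ^ n = 1) {x : M} (hx : x ≠ 1) (hgx : g x = x) : g = 1 := by
  by_contra hg1
  have hm : ∃ m : M, g m ≠ m := by
    by_contra hcon
    push Not at hcon
    exact hg1 (MulEquiv.ext hcon)
  obtain ⟨m, hm⟩ := hm
  set y := delta g m with hy
  have hyD : y ∈ (delta g).range := ⟨m, rfl⟩
  have hy1 : y ≠ 1 := by
    intro h1
    rw [delta_apply] at hy
    exact hm (eq_of_mul_eq_one' h.two (hy.symm.trans h1))
  have disj : ∀ c : M, c ∈ C g → c ∈ (delta g).range → c = 1 := by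
    rintro c hcC ⟨m', rfl⟩
    set c := delta g m' with hcdef
    have h1 : g m' = m' * c := by
      rw [hcdef, delta_apply, ← mul_assoc, h.two, one_mul]
    have h2 : ∀ k : ℕ, (g ^ k) m' = m' * c ^ k := by
      intro k
      induction k with
      | zero => simp
      | succ k ih =>
        rw [pow_succ, MulAut.mul_apply, h1, map_mul, ih]
        have h3 : ∀ k : ℕ, (g ^ k) c = c := by
          intro k
          induction k with
          | zero => simp
          | succ k ih => rw [pow_succ, MulAut.mul_apply, mem_C.1 hcC, ih]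
        rw [h3, pow_succ, mul_assoc]
    have h3 := h2 n
    rw [hgn, MulAut.one_apply] at h3
    have h4 : c ^ n = 1 := (left_eq_mul.1 h3)
    obtain ⟨j, rfl⟩ := hn
    rwa [pow_succ, pow_mul, sq, h.two, one_pow, one_mul] at h4
  have h1 : Nat.card (delta g).range < Nat.card V := by
    rw [← hk x hx]
    exact card_lt (h.range_le hg hgx) (h.self_mem_ker x) fun h2 => hx (disj x hgx h2)
  have h2 : Nat.card (C g) < Nat.card V := by
    rw [← hk y hy1]
    exact card_lt (h.C_le hg hyD) (h.self_mem_ker y) fun h2 => hy1 (disj y h2 hyD)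
  have h3 := card_C_mul h.two g
  rw [hc, sq] at h3
  have h4 := Nat.mul_lt_mul'' h2 h1
  omega

/-- The fixed points of an involution. -/
theorem invol [Finite M] [Finite V] (hc : Nat.card M = Nat.card V ^ 2)
    (hk : ∀ x : M, x ≠ 1 → Nat.card (h.beta x).ker = Nat.card V) {g : MulAut M} (hg : ∀ m, q (g m) = q m)
    (hgg : g * g = 1) (hg1 : g ≠ 1) {x : M} (hx : x ≠ 1) (hxC : x ∈ C g) : C g = (h.beta x).ker := by
  have hle : (delta g).range ≤ C g := by
    rintro _ ⟨m, rfl⟩
    have e : g (g m) = m := DFunLike.congr_fun hgg m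
    rw [mem_C, delta_apply, map_mul, e, mul_comm]
  have hm : ∃ m : M, g m ≠ m := by
    by_contra hcon
    push Not at hcon
    exact hg1 (MulEquiv.ext hcon)
  obtain ⟨m, hm⟩ := hm
  have hyD : delta g m ∈ (delta g).range := ⟨m, rfl⟩
  have hy1 : delta g m ≠ 1 := fun h1 => hm (eq_of_mul_eq_one' h.two h1)
  have key : ∀ d : M, d ∈ (delta g).range → d ≠ 1 → C g = (h.beta d).ker ∧ Nat.card (C g) = Nat.card V := by
    intro d hd hd1
    have h1 := h.C_le hg hd
    have h2 : Nat.card (C g) ≤ Nat.card V := by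
      rw [← hk d hd1]
      exact Subgroup.card_le_of_le h1
    have h3 : Nat.card (delta g).range ≤ Nat.card (C g) := Subgroup.card_le_of_le hle
    have h4 := card_C_mul h.two g
    rw [hc, sq] at h4
    have h5 : Nat.card V ≤ Nat.card (C g) := by
      by_contra h6
      rw [not_le] at h6
      have h7 := Nat.mul_lt_mul'' h6 (lt_of_le_of_lt h3 h6)
      omega
    refine ⟨Subgroup.eq_of_le_of_card_ge h1 ?_, le_antisymm h2 h5⟩
    rw [hk d hd1]
    exact h5
  obtain ⟨-, h6⟩ := key _ hyD hy1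
  have h7 := card_C_mul h.two g
  rw [hc, h6, sq] at h7
  have h8 : Nat.card (delta g).range = Nat.card V := Nat.eq_of_mul_eq_mul_left Nat.card_pos h7
  have h9 : (delta g).range = C g := Subgroup.eq_of_le_of_card_ge hle (by rw [h6, h8])
  exact (key x (h9 ▸ hxC) hx).1

/-- A perfect group of automorphisms preserving `q` is trivial. -/
theorem main [Finite M] [Finite V] (hc : Nat.card M = Nat.card V ^ 2)
    (hk : ∀ x : M, x ≠ 1 → Nat.card (h.beta x).ker = Nat.card V) (Γ : Subgroup (MulAut M)) (hΓ : ⁅Γ, Γ⁆ = Γ)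
    (hq : ∀ g ∈ Γ, ∀ m, q (g m) = q m) : Γ = ⊥ := by
  classical
  have : Fact (Nat.Prime 2) := ⟨Nat.prime_two⟩
  have hfin : Finite (MulAut M) := Finite.of_injective (fun g : MulAut M => (g : M → M)) DFunLike.coe_injective
  by_cases hM : Subsingleton M
  · rw [eq_bot_iff]
    intro g _
    rw [mem_bot]
    exact MulEquiv.ext fun m => Subsingleton.elim _ _
  rw [not_subsingleton_iff_nontrivial] at hM
  have hcomm : commutator Γ = ⊤ := by
    apply Subgroup.map_injective Γ.subtype_injective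
    rw [Subgroup.map_subtype_commutator, hΓ, ← MonoidHom.range_eq_map, Subgroup.range_subtype]
  obtain ⟨S⟩ : Nonempty (Sylow 2 Γ) := inferInstance
  have pM : IsPGroup 2 M := fun m => ⟨1, by rw [pow_one, sq, h.two]⟩
  -- a fixed point
  obtain ⟨m, hm, hm1⟩ : ∃ m : M, (∀ s : Γ, s ∈ (S : Subgroup Γ) → (s : MulAut M) m = m) ∧ m ≠ 1 := by
    have hdvd : 2 ∣ Nat.card M := by
      obtain ⟨s, hs⟩ := IsPGroup.iff_card.1 pM
      have h1 : 1 < Nat.card M := Finite.one_lt_card
      rw [hs] at h1 ⊢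
      refine dvd_pow_self 2 ?_
      rintro rfl
      simp at h1
    obtain ⟨m, hm, hm1⟩ := S.isPGroup'.exists_fixed_point_of_prime_dvd_card_of_fixed_point M hdvd (a := (1 : M))
      (fun s => map_one (s : MulAut M))
    exact ⟨m, fun s hs => hm ⟨s, hs⟩, fun e => hm1 e.symm⟩
  set L := (h.beta m).ker with hLdef
  have hCL : ∀ t : Γ, t ∈ (S : Subgroup Γ) → t * t = 1 → t ≠ 1 → C (t : MulAut M) = L := by
    intro t ht htt ht1
    refine h.invol hc hk (hq t t.2) ?_ ?_ hm1 (hm t ht)
    · exact congrArg Subtype.val htt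
    · exact fun e => ht1 (Subtype.ext e)
  -- the stabiliser of `L`
  let N : Subgroup Γ :=
    { carrier := {g | ∀ l : M, (g : MulAut M) l ∈ L ↔ l ∈ L}
      one_mem' := fun l => Iff.rfl
      mul_mem' := by
        intro a b ha hb l
        exact (ha _).trans (hb _)
      inv_mem' := by
        intro a ha l
        have h1 := ha ((a : MulAut M)⁻¹ l)
        rw [MulAut.apply_inv_self] at h1
        exact h1.symm }
  have hSN : (S : Subgroup Γ) ≤ N := by
    intro s hs l
    rw [hLdef, MonoidHom.mem_ker, MonoidHom.mem_ker, h.beta_apply, h.beta_apply]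
    have h1 := B_map (hq s s.2) m l
    rw [hm s hs] at h1
    rw [h1]
  have hctrl : ∀ x ∈ (S : Subgroup Γ), x ≠ 1 → ∀ g : Γ, g * x * g⁻¹ ∈ (S : Subgroup Γ) →
      g ∈ (S : Subgroup Γ) := by
    intro x hx hx1 g hg
    -- a power of `x` which is an involution
    obtain ⟨k, hk1, hk2⟩ : ∃ k : ℕ, x ^ (2 ^ k) ≠ 1 ∧ x ^ (2 ^ (k + 1)) = 1 := by
      obtain ⟨j, hj⟩ := IsPGroup.iff_orderOf.1 S.isPGroup' ⟨x, hx⟩
      rw [← Subgroup.orderOf_coe] at hj
      change orderOf x = 2 ^ j at hj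
      have hj0 : j ≠ 0 := by
        rintro rfl
        rw [pow_zero, orderOf_eq_one_iff] at hj
        exact hx1 hj
      obtain ⟨k, rfl⟩ := Nat.exists_eq_succ_of_ne_zero hj0
      refine ⟨k, fun e => ?_, ?_⟩
      · have h1 := orderOf_dvd_of_pow_eq_one e
        rw [hj, Nat.pow_dvd_pow_iff_le_right (by norm_num)] at h1
        omega
      · rw [← Nat.succ_eq_add_one, ← hj, pow_orderOf_eq_one]
    set t := x ^ (2 ^ k) with ht
    have htt : t * t = 1 := by rw [ht, ← sq, ← pow_mul, ← pow_succ, hk2]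
    have htS : t ∈ (S : Subgroup Γ) := pow_mem hx _
    have hgt : g * t * g⁻¹ ∈ (S : Subgroup Γ) := by
      rw [ht, ← conj_pow]
      exact pow_mem hg _
    have e1 := hCL t htS htt hk1
    have e2 := hCL (g * t * g⁻¹) hgt (by
      have : g * t * g⁻¹ * (g * t * g⁻¹) = g * (t * t) * g⁻¹ := by group
      rw [this, htt, mul_one, mul_inv_cancel]) (fun e => hk1 (by
        have : t = g⁻¹ * (g * t * g⁻¹) * g := by group
        rw [this, e, mul_one, inv_mul_cancel]))
    -- `N` centralises `L`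
    have hLL : ∀ l ∈ L, ∀ l' ∈ L, B q l l' = 1 := by
      intro l hl l' hl'
      by_cases hl1 : l = 1
      · rw [hl1]
        exact (B_comm q 1 l').trans (h.beta l').map_one
      · rw [← e1] at hl hl'
        rw [h.invol hc hk (hq t t.2) (congrArg Subtype.val htt) (fun e => hk1 (Subtype.ext e)) hl1 hl] at hl'
        exact hl'
    have hNfix : ∀ a ∈ N, ∀ l ∈ L, (a : MulAut M) l = l := by
      intro a ha l hl
      have h1 : (a : MulAut M) l ∈ L := (ha l).2 hl
      have h2 := h.q_mul l ((a : MulAut M) l)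
      rw [hq a a.2, h.twoV, one_mul, hLL l hl _ h1] at h2
      exact eq_of_mul_eq_one' h.two (h.one _ h2)
    have hNp : IsPGroup 2 N := by
      rintro ⟨a, ha⟩
      obtain ⟨j, n, hn, hjn⟩ := Nat.exists_eq_two_pow_mul_odd (n := orderOf a) (orderOf_pos a).ne'
      refine ⟨j, ?_⟩
      have h1 : (a ^ (2 ^ j)) ^ n = 1 := by rw [← pow_mul, ← hjn, pow_orderOf_eq_one]
      have h2 : ((a ^ (2 ^ j) : Γ) : MulAut M) = 1 :=
        h.eq_one_of_odd hc hk (hq _ (a ^ (2 ^ j)).2) hn (congrArg Subtype.val h1) hm1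
          (hNfix _ (pow_mem ha _) m (h.self_mem_ker m))
      exact Subtype.ext (Subtype.ext h2)
    have hNS : N = (S : Subgroup Γ) := S.is_maximal' hNp hSN
    rw [← hNS]
    have h3 : ∀ l : M, (l ∈ L ↔ (g : MulAut M)⁻¹ l ∈ L) := by
      intro l
      have h4 : l ∈ C ((g * t * g⁻¹ : Γ) : MulAut M) ↔ (g : MulAut M)⁻¹ l ∈ C (t : MulAut M) := by
        rw [mem_C, mem_C]
        change (g : MulAut M) ((t : MulAut M) ((g : MulAut M)⁻¹ l)) = l ↔ _
        constructor
        · intro h5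
          have h6 := congrArg (fun z => (g : MulAut M)⁻¹ z) h5
          simp only [MulAut.inv_apply_self] at h6
          exact h6
        · intro h5
          rw [h5, MulAut.apply_inv_self]
      rwa [e1, e2] at h4
    intro l
    have h5 := h3 ((g : MulAut M) l)
    rwa [MulAut.inv_apply_self] at h5
  have hS := Cfsg.Agent.Characters.CNFocal.le_commutator_of_controls 2 S hcomm (S : Subgroup Γ) le_rfl hctrl
  have hSsol : Group.IsSolvable (S : Subgroup Γ) := by
    have := S.isPGroup'.isNilpotent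
    infer_instance
  have hSbot : (S : Subgroup Γ) = ⊥ :=
    bot_of_perfect (S : Subgroup Γ) hSsol (le_antisymm (Subgroup.commutator_le.2 fun a ha b hb =>
      mul_mem (mul_mem (mul_mem ha hb) (inv_mem ha)) (inv_mem hb)) hS)
  have hodd : Odd (Nat.card Γ) := by
    rw [← Nat.not_even_iff_odd, even_iff_two_dvd]
    intro h2
    have h3 := S.dvd_card_of_dvd_card h2
    rw [hSbot, Subgroup.card_bot] at h3
    omega
  exact bot_of_perfect Γ (Cfsg.Agent.S0205.result hodd) hΓ

end QM

end Cfsg.Agent.H868.Quad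
end

-- part: H868/QuadR
section
/-!
# 2-groups of exponent 4 with central involutions, permuted transitively by the automorphisms (helper868, for S3924)

`quad` : a perfect group of automorphisms of such a group `R` which is trivial on `V = {x | x ^ 2 = 1}` is trivial
on `R / V`.
-/

set_option autoImplicit false

namespace Cfsg.Agent.H868.Quad

open Subgroup

section

variable {R : Type*} [Group R]

/-- the subgroup of the elements with square 1 -/
def Om (hV : ∀ x y : R, x ^ 2 = 1 → x * y = y * x) : Subgroup R where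
  carrier := {x | x ^ 2 = 1}
  one_mem' := one_pow 2
  mul_mem' := by
    intro a b (ha : a ^ 2 = 1) (hb : b ^ 2 = 1)
    change (a * b) ^ 2 = 1
    have : Commute a b := hV a b ha
    rw [this.mul_pow, ha, hb, one_mul]
  inv_mem' := by
    intro a (ha : a ^ 2 = 1)
    change a⁻¹ ^ 2 = 1
    rw [inv_pow, ha, inv_one]

variable (hV : ∀ x y : R, x ^ 2 = 1 → x * y = y * x)

instance Om_normal : (Om hV).Normal := ⟨fun n hn g => by
  have h1 : g * n * g⁻¹ = n := by
    rw [← hV n g hn, mul_assoc, mul_inv_cancel, mul_one]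
  rw [h1]
  exact hn⟩

/-- `Om` as a commutative group -/
@[reducible] def omComm : CommGroup (Om hV) :=
  { (inferInstance : Group (Om hV)) with
    mul_comm := fun a b => Subtype.ext (hV a b a.2) }

theorem quot_sq (h4 : ∀ x : R, (x ^ 2) ^ 2 = 1) (m : R ⧸ Om hV) : m * m = 1 := by
  obtain ⟨x, rfl⟩ := QuotientGroup.mk_surjective m
  rw [← QuotientGroup.mk_mul, QuotientGroup.eq_one_iff, ← sq]
  exact h4 x

theorem quot_comm (h4 : ∀ x : R, (x ^ 2) ^ 2 = 1) (a b : R ⧸ Om hV) : a * b = b * a := by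
  have h1 := quot_sq hV h4
  have inv : ∀ m : R ⧸ Om hV, m⁻¹ = m := fun m => inv_eq_of_mul_eq_one_left (h1 m)
  rw [← inv (a * b), mul_inv_rev, inv, inv]

/-- the quotient as a commutative group -/
@[reducible] def quotComm (h4 : ∀ x : R, (x ^ 2) ^ 2 = 1) : CommGroup (R ⧸ Om hV) :=
  { (inferInstance : Group (R ⧸ Om hV)) with
    mul_comm := quot_comm hV h4 }

/-- the commutator `(xy)⁻¹(yx)` -/
def kap (x y : R) : R := (x * y)⁻¹ * (y * x)

theorem kap_spec (x y : R) : y * x = x * y * kap x y := by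
  unfold kap; group

theorem kap_mem (h4 : ∀ x : R, (x ^ 2) ^ 2 = 1) (x y : R) : kap x y ∈ Om hV := by
  unfold kap
  rw [← QuotientGroup.eq, QuotientGroup.mk_mul, QuotientGroup.mk_mul]
  exact quot_comm hV h4 _ _

include hV in
theorem kap_mul (h4 : ∀ x : R, (x ^ 2) ^ 2 = 1) (x y z : R) : kap (x * y) z = kap x z * kap y z := by
  have h1 := kap_mem hV h4 x z
  have h2 : z * (x * y) = x * y * z * (kap x z * kap y z) := by
    calc z * (x * y) = (z * x) * y := by rw [mul_assoc]
      _ = x * z * (kap x z * y) := by rw [kap_spec x z, mul_assoc]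
      _ = x * (z * y) * kap x z := by rw [hV _ y h1]; simp only [mul_assoc]
      _ = x * y * z * (kap y z * kap x z) := by rw [kap_spec y z]; simp only [mul_assoc]
      _ = _ := by rw [hV _ (kap y z) h1]
  exact mul_left_cancel ((kap_spec (x * y) z).symm.trans h2)

include hV in
theorem sq_mul (h4 : ∀ x : R, (x ^ 2) ^ 2 = 1) (x y : R) : (x * y) ^ 2 = x ^ 2 * y ^ 2 * kap x y := by
  have h1 := kap_mem hV h4 x y
  calc (x * y) ^ 2 = x * (y * x) * y := by rw [sq]; simp only [mul_assoc]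
    _ = x * (x * y * kap x y) * y := by rw [kap_spec x y]
    _ = x * x * y * (kap x y * y) := by simp only [mul_assoc]
    _ = x * x * y * (y * kap x y) := by rw [hV _ y h1]
    _ = _ := by rw [sq, sq]; simp only [mul_assoc]

/-- the quadratic map `xV ↦ x²` -/
def qq (h4 : ∀ x : R, (x ^ 2) ^ 2 = 1) (m : R ⧸ Om hV) : Om hV :=
  Quotient.liftOn' m (fun x => (⟨x ^ 2, h4 x⟩ : Om hV)) (by
    intro a b hab
    rw [QuotientGroup.leftRel_apply] at hab
    have h1 : b = a * (a⁻¹ * b) := by group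
    apply Subtype.ext
    change a ^ 2 = b ^ 2
    have h2 : Commute a (a⁻¹ * b) := (hV _ a hab).symm
    rw [h1, h2.mul_pow, hab, mul_one])

theorem qq_mk (h4 : ∀ x : R, (x ^ 2) ^ 2 = 1) (x : R) : qq hV h4 (x : R ⧸ Om hV) = ⟨x ^ 2, h4 x⟩ := rfl

theorem QM_qq (h4 : ∀ x : R, (x ^ 2) ^ 2 = 1) :
    @QM (R ⧸ Om hV) (Om hV) (quotComm hV h4) (omComm hV) (qq hV h4) := by
  let _ := quotComm hV h4
  let _ := omComm hV
  have hB : ∀ x y : R, B (qq hV h4) (x : R ⧸ Om hV) (y : R ⧸ Om hV) = ⟨kap x y, kap_mem hV h4 x y⟩ := by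
    intro x y
    apply Subtype.ext
    change (x * y) ^ 2 * (x ^ 2 * y ^ 2) = kap x y
    rw [sq_mul hV h4, mul_assoc, hV (kap x y) _ (kap_mem hV h4 x y), ← mul_assoc]
    have h1 : (x ^ 2 * y ^ 2) * (x ^ 2 * y ^ 2) = 1 := by
      have h2 : x ^ 2 * y ^ 2 ∈ Om hV := mul_mem (h4 x) (h4 y)
      rw [← sq]
      exact h2
    rw [h1, one_mul]
  refine ⟨quot_sq hV h4, fun v => Subtype.ext ?_, ?_, ?_, ?_⟩
  · change (v : R) * v = 1
    rw [← sq]
    exact v.2
  · exact Subtype.ext (one_pow 2)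
  · intro m
    obtain ⟨x, rfl⟩ := QuotientGroup.mk_surjective m
    intro h
    rw [QuotientGroup.eq_one_iff]
    exact congrArg Subtype.val h
  · intro x y z
    obtain ⟨x, rfl⟩ := QuotientGroup.mk_surjective x
    obtain ⟨y, rfl⟩ := QuotientGroup.mk_surjective y
    obtain ⟨z, rfl⟩ := QuotientGroup.mk_surjective z
    have h1 : ((x : R ⧸ Om hV) * (y : R ⧸ Om hV)) = ((x * y : R) : R ⧸ Om hV) := rfl
    rw [h1, hB, hB, hB]
    exact Subtype.ext (kap_mul hV h4 x y z)

theorem Om_map (φ : MulAut R) : (Om hV).map (φ : R →* R) = Om hV := by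
  ext x
  constructor
  · rintro ⟨y, hy, rfl⟩
    change (φ y) ^ 2 = 1
    rw [← map_pow, (show y ^ 2 = 1 from hy), map_one]
  · intro hx
    refine ⟨φ⁻¹ x, ?_, MulAut.apply_inv_self _ _ _⟩
    change (φ⁻¹ x) ^ 2 = 1
    rw [← map_pow, (show x ^ 2 = 1 from hx), map_one]

/-- the action of the automorphisms on the quotient -/
def rho : MulAut R →* MulAut (R ⧸ Om hV) where
  toFun φ := QuotientGroup.congr (Om hV) (Om hV) φ (Om_map hV φ)
  map_one' := by
    ext m
    obtain ⟨x, rfl⟩ := QuotientGroup.mk_surjective m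
    rfl
  map_mul' := by
    intro a b
    ext m
    obtain ⟨x, rfl⟩ := QuotientGroup.mk_surjective m
    rfl

theorem rho_mk (φ : MulAut R) (x : R) : rho hV φ (x : R ⧸ Om hV) = ((φ x : R) : R ⧸ Om hV) := rfl

end

/-- The lemma QUAD for S3924. -/
theorem quad {R : Type*} [Group R] [Finite R] (hV : ∀ x y : R, x ^ 2 = 1 → x * y = y * x)
    (h4 : ∀ x : R, (x ^ 2) ^ 2 = 1)
    (htr : ∀ v w : R, v ≠ 1 → w ≠ 1 → v ^ 2 = 1 → w ^ 2 = 1 → ∃ φ : MulAut R, φ v = w)
    (Γ : Subgroup (MulAut R)) (hΓ : ⁅Γ, Γ⁆ = Γ) (hc : ∀ φ ∈ Γ, ∀ v, v ^ 2 = 1 → φ v = v) :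
    ∀ φ ∈ Γ, ∀ x, (x⁻¹ * φ x) ^ 2 = 1 := by
  let _ := quotComm hV h4
  let _ := omComm hV
  have h := QM_qq hV h4
  have hq : ∀ g ∈ Γ.map (rho hV), ∀ m, qq hV h4 (g m) = qq hV h4 m := by
    rintro _ ⟨φ, hφ, rfl⟩ m
    obtain ⟨x, rfl⟩ := QuotientGroup.mk_surjective m
    rw [rho_mk, qq_mk, qq_mk]
    apply Subtype.ext
    change (φ x) ^ 2 = x ^ 2
    rw [← map_pow]
    exact hc φ hφ _ (h4 x)
  suffices hbot : Γ.map (rho hV) = ⊥ by
    intro φ hφ x
    have h1 : rho hV φ ∈ Γ.map (rho hV) := ⟨φ, hφ, rfl⟩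
    rw [hbot, mem_bot] at h1
    have h2 := DFunLike.congr_fun h1 (x : R ⧸ Om hV)
    rw [rho_mk] at h2
    have h3 : ((x : R) : R ⧸ Om hV) = ((φ x : R) : R ⧸ Om hV) := h2.symm
    rw [QuotientGroup.eq] at h3
    exact h3
  have hN : ∀ v w : Om hV, v ≠ 1 → w ≠ 1 →
      Nat.card {m // qq hV h4 m = v} = Nat.card {m // qq hV h4 m = w} := by
    intro v w hv hw
    obtain ⟨φ, hφ⟩ := htr v w (fun e => hv (Subtype.ext e)) (fun e => hw (Subtype.ext e)) v.2 w.2
    refine Nat.card_congr ((rho hV φ).toEquiv.subtypeEquiv fun m => ?_)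
    obtain ⟨x, rfl⟩ := QuotientGroup.mk_surjective m
    change qq hV h4 (x : R ⧸ Om hV) = v ↔ qq hV h4 (rho hV φ (x : R ⧸ Om hV)) = w
    rw [rho_mk, qq_mk, qq_mk, Subtype.ext_iff, Subtype.ext_iff]
    change x ^ 2 = v ↔ (φ x) ^ 2 = w
    rw [← map_pow, ← hφ]
    exact φ.injective.eq_iff.symm
  rcases h.dichotomy hN with hinj | ⟨hcard, hZ⟩
  · rw [eq_bot_iff]
    intro g hg
    rw [mem_bot]
    exact MulEquiv.ext fun m => hinj (hq g hg m)
  · refine h.main hcard (fun x hx => h.card_ker hcard hZ hx) _ ?_ hq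
    rw [← Subgroup.map_commutator, hΓ]

end Cfsg.Agent.H868.Quad
end

-- part: H486/HgRadD
section
/-!
# Homogeneous finite groups: perfect subgroups centralise `O₂(G)` (helper486, for S3924)
-/

set_option autoImplicit false
set_option linter.unusedSectionVars false

namespace Cfsg.Agent.H486.Hg.Rad

open Subgroup Cfsg.Agent.H486.Hg Cfsg.Agent.H486.Sn Cfsg.Agent.Lib.Cores

universe u

variable {G : Type u} [Group G] [Finite G]

theorem z1 : ∀ a b : ZMod 2, a * b = 1 → a = 1 := by decide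

/-- a perfect subgroup centralises `V`, `p = 2` -/
theorem perfect_centralises_V_two (hH : Homog G) {V : Subgroup G} (hV : ∀ x, x ∈ V ↔ x ^ 2 = 1)
    (hVc : ∀ x ∈ V, ∀ y ∈ V, x * y = y * x) {K : Subgroup G} (hK : ⁅K, K⁆ = K) :
    ∀ g ∈ K, ∀ x ∈ V, g * x * g⁻¹ = x := by
  have hp : Fact (Nat.Prime 2) := ⟨Nat.prime_two⟩
  have hVn : ∀ g : G, ∀ x ∈ V, g * x * g⁻¹ ∈ V := by
    intro a x hx
    rw [hV] at hx ⊢
    rw [conj_pow, hx]; group
  have hVp : IsPGroup 2 V := fun x => ⟨1, Subtype.ext (by simpa only [_root_.pow_one, _root_.SubmonoidClass.coe_pow, _root_.OneMemClass.coe_one] using (hV x).1 x.2)⟩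
  obtain ⟨k, hk⟩ := IsPGroup.iff_card.1 hVp
  obtain ⟨c⟩ := exists_equiv (A := V) (p := 2) (k := k) (fun x y => Subtype.ext (hVc x x.2 y y.2))
    (fun x => Subtype.ext (by simpa only [_root_.SubmonoidClass.coe_pow, _root_.OneMemClass.coe_one] using (hV x).1 x.2)) hk
  by_cases hk0 : k = 0
  · subst hk0
    rw [pow_zero, Subgroup.card_eq_one] at hk
    intro g _ x hx
    rw [hk, mem_bot] at hx
    rw [hx]; group
  by_cases hk1 : k = 1
  · subst hk1
    refine trivial_of_scalar c hVn (fun g => ?_) hK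
    obtain ⟨M, hM⟩ := exists_actM c (hVn g)
    refine ⟨M 0 0, ?_⟩
    have h1 : M = M 0 0 • (1 : Matrix (Fin 1) (Fin 1) (ZMod 2)) := by
      ext i j
      have hi : i = 0 := Subsingleton.elim _ _
      have hj : j = 0 := Subsingleton.elim _ _
      subst hi; subst hj
      simp
    rw [← h1]; exact hM
  by_cases hk2 : k = 2
  · subst hk2
    exact trivial_small c hVn (by norm_num) hK
  rcases dichotomy hH c hVn (by omega) (by omega) with h | h
  · exact trivial_of_scalar c hVn h hK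
  · exfalso
    have h0 : 0 < k := by omega
    have h1 : 1 < k := by omega
    refine t_trick hH hV hVc c (i := ⟨0, h0⟩) (j := ⟨1, h1⟩) (by simp) fun M N hMN => ?_
    have hdet : M.det = 1 := by
      have h1 := congrArg Matrix.det hMN
      rw [Matrix.det_mul, Matrix.det_one] at h1
      exact z1 _ _ h1
    exact h ⟨M, hdet⟩

/-- **A perfect subgroup centralises `O₂(G)`.** -/
theorem perfect_centralises_two (hH : Homog G) {K : Subgroup G} (hK : ⁅K, K⁆ = K) :
    ∀ g ∈ K, ∀ x ∈ Cfsg.pCore 2 G, g * x * g⁻¹ = x := by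
  have hp : Fact (Nat.Prime 2) := ⟨Nat.prime_two⟩
  by_cases h : Cfsg.pCore 2 G = ⊥
  · intro g _ x hx
    rw [h, mem_bot] at hx
    rw [hx]; group
  have hn : (Cfsg.pCore 2 G).Normal := Cfsg.Agent.Lib.Cores.pCore_normal 2
  have hQp : IsPGroup 2 (Cfsg.pCore 2 G) := pCore_isPGroup 2
  have hQchar : (Cfsg.pCore 2 G).Characteristic := pCore_characteristic 2
  obtain ⟨V, hV, hVQ, hVc⟩ := exists_V hH h
  have hVc' : ∀ x ∈ V, ∀ y ∈ V, x * y = y * x := fun x hx y hy => hVc x hx y (hVQ hy)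
  have hKV := perfect_centralises_V_two hH hV hVc' hK
  set Q := Cfsg.pCore 2 G with hQ
  have hφQ : ∀ (ψ : MulAut G) (y : G), y ∈ Q → ψ y ∈ Q := by
    intro ψ y hy
    have h3 := Subgroup.characteristic_iff_map_eq.1 hQchar ψ
    rw [← h3]
    exact ⟨y, hy, rfl⟩
  have hφV : ∀ (ψ : MulAut G) (y : G), y ∈ V → ψ y ∈ V := by
    intro ψ y hy
    rw [hV] at hy ⊢
    rw [← map_pow, hy, map_one]
  -- it is enough to centralise the elements of order 4
  suffices h4 : ∀ g ∈ K, Nat.Coprime (orderOf g) 2 → ∀ x ∈ Q, x ^ 4 = 1 → g * x * g⁻¹ = x by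
    refine centralises_of_coprime hK 2 fun g hg hgo => ?_
    obtain ⟨H, -, hH4, -, hHa⟩ := Cfsg.Agent.H787.exists_omega_critical_two hQp
    have h5 : orderOf (MulAut.conjNormal g : MulAut Q) ∣ orderOf g := orderOf_map_dvd _ g
    have h6 := hHa (MulAut.conjNormal g) (Nat.Coprime.coprime_dvd_left h5 hgo) (fun x hx => by
      apply Subtype.ext
      rw [MulAut.conjNormal_apply]
      exact h4 g hg hgo x x.2 (by simpa only [_root_.SubmonoidClass.coe_pow, _root_.OneMemClass.coe_one] using congrArg Subtype.val (hH4 x hx)))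
    intro x hx
    have h7 := congrArg Subtype.val (DFunLike.congr_fun h6 (⟨x, hx⟩ : Q))
    rw [MulAut.conjNormal_apply] at h7
    exact h7
  by_cases hQ4 : ∀ x ∈ Q, x ^ 4 = 1 → x ∈ V
  · intro g hg _ x hx hx4
    exact hKV g hg x (hQ4 x hx hx4)
  push Not at hQ4
  obtain ⟨x₀, hx₀Q, hx₀4, hx₀V⟩ := hQ4
  have hVn : V.Normal := ⟨fun x hx g => by
    rw [hV] at hx ⊢
    rw [conj_pow, hx]; group⟩
  -- the preimage of `Ω₁(Z(Q/V))`
  let π : G →* G ⧸ V := QuotientGroup.mk' V
  have hπ1 : ∀ x, π x = 1 ↔ x ∈ V := fun x => QuotientGroup.eq_one_iff x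
  let R : Subgroup G :=
    { carrier := {x | x ∈ Q ∧ π x ^ 2 = 1 ∧ ∀ y ∈ Q, π x * π y = π y * π x}
      mul_mem' := by
        rintro a b ⟨ha, ha2, hac⟩ ⟨hb, hb2, hbc⟩
        refine ⟨Q.mul_mem ha hb, ?_, fun y hy => ?_⟩
        · have h1 : Commute (π a) (π b) := hac b hb
          rw [map_mul, h1.mul_pow, ha2, hb2, one_mul]
        · rw [map_mul, mul_assoc, hbc y hy, ← mul_assoc, hac y hy, mul_assoc]
      one_mem' := ⟨Q.one_mem, by rw [map_one, one_pow], fun y _ => by rw [map_one, one_mul, mul_one]⟩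
      inv_mem' := by
        rintro a ⟨ha, ha2, hac⟩
        refine ⟨Q.inv_mem ha, by rw [map_inv, inv_pow, ha2, inv_one], fun y hy => ?_⟩
        rw [map_inv]
        exact (show Commute (π a) (π y) from hac y hy).inv_left }
  have hRmem : ∀ x, x ∈ R ↔ x ∈ Q ∧ π x ^ 2 = 1 ∧ ∀ y ∈ Q, π x * π y = π y * π x := fun _ => Iff.rfl
  have hRV : ∀ x ∈ R, x ^ 2 ∈ V := by
    intro x hx
    rw [← hπ1, map_pow]
    exact hx.2.1
  -- an element of order 4
  obtain ⟨x₁, hx₁R, hx₁V⟩ : ∃ x ∈ R, x ∉ V := by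
    set Qb : Subgroup (G ⧸ V) := Q.map π with hQb
    have hQbp : IsPGroup 2 Qb := hQp.map π
    have hne : Qb ≠ ⊥ := by
      intro h0
      have h1 : π x₀ ∈ Qb := ⟨x₀, hx₀Q, rfl⟩
      rw [h0, mem_bot, hπ1] at h1
      exact hx₀V h1
    have : Nontrivial Qb := (Subgroup.nontrivial_iff_ne_bot Qb).2 hne
    have h1 := hQbp.center_nontrivial
    have h2 : 2 ∣ Nat.card (center Qb) := by
      rcases (hQbp.to_subgroup (center Qb)).card_eq_or_dvd with h2 | h2
      · exact absurd h2 (Finite.one_lt_card (α := center Qb)).ne'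
      · exact h2
    obtain ⟨z, hz⟩ := exists_prime_orderOf_dvd_card' (G := center Qb) 2 h2
    obtain ⟨x₁, hx₁, hx₁z⟩ := (z : Qb).2
    refine ⟨x₁, ⟨hx₁, ?_, fun y hy => ?_⟩, ?_⟩
    · rw [hx₁z, ← Subgroup.coe_pow, ← Subgroup.coe_pow]
      have h3 : z ^ 2 = 1 := by rw [← hz, pow_orderOf_eq_one]
      rw [h3]; rfl
    · rw [hx₁z]
      have h4 := (Subgroup.mem_center_iff.1 z.2) ⟨π y, ⟨y, hy, rfl⟩⟩
      exact (congrArg Subtype.val h4).symm
    · intro h3
      rw [← hπ1, hx₁z] at h3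
      have h4 : z = 1 := Subtype.ext (Subtype.ext h3)
      rw [h4, orderOf_one] at hz
      exact absurd hz (by norm_num)
  have hRinv : ∀ (φ : MulAut G), ∀ x ∈ R, φ x ∈ R := by
    rintro φ x ⟨hxQ, hx2, hxc⟩
    refine ⟨hφQ φ x hxQ, ?_, fun y hy => ?_⟩
    · rw [← map_pow, hπ1] at hx2 ⊢
      rw [← map_pow]
      exact hφV φ _ hx2
    · have h1 := hxc (φ⁻¹ y) (hφQ φ⁻¹ y hy)
      rw [← map_mul, ← map_mul] at h1 ⊢
      have h2 : (x * φ⁻¹ y)⁻¹ * (φ⁻¹ y * x) ∈ V := QuotientGroup.eq.1 h1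
      have h3 := hφV φ _ h2
      rw [map_mul, map_inv, map_mul, map_mul, MulAut.apply_inv_self] at h3
      exact QuotientGroup.eq.2 h3
  have h2not : ∀ x, x ^ 4 = 1 → x ∉ V → orderOf x = 4 := by
    intro x hx hxV
    have h1 : orderOf x ∣ 2 ^ 2 := orderOf_dvd_of_pow_eq_one (by norm_num; exact hx)
    obtain ⟨m, hm, hm2⟩ := (Nat.dvd_prime_pow Nat.prime_two).1 h1
    interval_cases m
    · have hx1 : x = 1 := orderOf_eq_one_iff.1 (by simpa using hm2)
      exact absurd ((hV x).2 (by rw [hx1, one_pow])) hxV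
    · exact absurd ((hV x).2 (by rw [← pow_one 2, ← hm2, pow_orderOf_eq_one])) hxV
    · rw [hm2]; norm_num
  have hVR : V ≤ R := fun x hx => ⟨hVQ hx, by rw [(hπ1 x).2 hx, one_pow], fun y _ => by
    rw [(hπ1 x).2 hx, one_mul, mul_one]⟩
  have hR4 : ∀ x ∈ R, x ^ 4 = 1 := by
    intro x hx
    have h1 := (hV _).1 (hRV x hx)
    rw [← pow_mul] at h1
    exact h1
  have hR : ∀ x, x ^ 4 = 1 → x ∈ R := by
    intro x hx
    by_cases hxV : x ∈ V
    · exact hVR hxV
    · obtain ⟨φ, hφ⟩ := SLT.exists_aut_of_orderOf hH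
        ((h2not x₁ (hR4 x₁ hx₁R) hx₁V).trans (h2not x hx hxV).symm)
      rw [← hφ]
      exact hRinv φ x₁ hx₁R
  have hRn : R.Normal := ⟨fun x hx g => hRinv (MulAut.conj g) x hx⟩
  -- the group of automorphisms of `R` induced by `K`
  have key := Cfsg.Agent.H868.Quad.quad (R := R) (fun x y hx => by
      have h1 : (x : G) ∈ V := (hV _).2 (congrArg Subtype.val hx)
      exact Subtype.ext (hVc _ h1 _ y.2.1))
    (fun x => by
      apply Subtype.ext
      have h1 := hR4 x x.2
      change ((x : G) ^ 2) ^ 2 = 1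
      rw [← pow_mul]; exact h1)
    (fun v w hv hw hv2 hw2 => by
      have h1 : orderOf (v : G) = 2 := orderOf_eq_prime (congrArg Subtype.val hv2) (fun h => hv (Subtype.ext h))
      have h2 : orderOf (w : G) = 2 := orderOf_eq_prime (congrArg Subtype.val hw2) (fun h => hw (Subtype.ext h))
      obtain ⟨φ, hφ⟩ := SLT.exists_aut_of_orderOf hH (h1.trans h2.symm)
      exact ⟨restr φ R (hRinv φ), Subtype.ext hφ⟩)
    (K.map (MulAut.conjNormal : G →* MulAut R)) (Cfsg.Agent.Schreier.Basic.map_perfect _ hK) (by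
      rintro _ ⟨g, hg, rfl⟩ v hv
      apply Subtype.ext
      rw [MulAut.conjNormal_apply]
      exact hKV g hg v ((hV _).2 (congrArg Subtype.val hv)))
  intro g hg hgo x hx hx4
  have h1 := key (MulAut.conjNormal g) ⟨g, hg, rfl⟩ ⟨x, hR x hx4⟩
  have h2 := congrArg Subtype.val h1
  change (x⁻¹ * ((MulAut.conjNormal g : MulAut R) ⟨x, hR x hx4⟩ : R)) ^ 2 = 1 at h2
  rw [MulAut.conjNormal_apply] at h2
  set v := x⁻¹ * (g * x * g⁻¹) with hv
  have hvV : v ∈ V := (hV _).2 h2
  have hgv : g * v * g⁻¹ = v := hKV g hg v hvV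
  have hgx : g * x * g⁻¹ = x * v := by rw [hv]; group
  have hpow : ∀ m : ℕ, g ^ m * x * (g ^ m)⁻¹ = x * v ^ m := by
    intro m
    induction m with
    | zero => simp
    | succ m ih =>
      have h3 : g ^ (m + 1) * x * (g ^ (m + 1))⁻¹ = g * (g ^ m * x * (g ^ m)⁻¹) * g⁻¹ := by rw [pow_succ']; group
      have h4 : g * (x * v ^ m) * g⁻¹ = (g * x * g⁻¹) * (g * v * g⁻¹) ^ m := by rw [conj_pow]; group
      rw [h3, ih, h4, hgx, hgv, pow_succ', mul_assoc]
  have h3 := hpow (orderOf g)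
  rw [pow_orderOf_eq_one, one_mul, inv_one, mul_one] at h3
  have h4 : v ^ orderOf g = 1 := left_eq_mul.1 h3
  have h5 := pow_gcd_eq_one.2 ⟨h4, h2⟩
  rw [hgo, pow_one] at h5
  rw [hgx, h5, mul_one]

end Cfsg.Agent.H486.Hg.Rad
end

-- part: H486/HgSolv
section
/-!
# Homogeneous finite groups without components are solvable (helper486, for S3924)

* `Rad.homog_of_char` : characteristic subgroups of homogeneous groups are homogeneous;
* `Rad.isSolvable_of_layer_eq_bot` : a finite homogeneous group without components is solvable.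
-/

set_option autoImplicit false

namespace Cfsg.Agent.H486.Hg.Rad

open Subgroup Cfsg.Agent.H486.Hg Cfsg.Agent.Lib.Cores

universe u

variable {G : Type u} [Group G]

theorem homog_of_char [Finite G] (hH : Homog G) (N : Subgroup G) [hN : N.Characteristic] : Homog N := by
  intro A B e
  have hinj : Function.Injective N.subtype := N.subtype_injective
  set eA := A.equivMapOfInjective N.subtype hinj with heA
  set eB := B.equivMapOfInjective N.subtype hinj with heB
  obtain ⟨φ, hφ⟩ := hH (A.map N.subtype) (B.map N.subtype) ((eA.symm.trans e).trans eB)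
  have hφN : ∀ x ∈ N, φ x ∈ N := fun x hx => by
    have h1 := Subgroup.characteristic_iff_map_eq.1 hN φ
    rw [← h1]
    exact ⟨x, hx, rfl⟩
  refine ⟨restr φ N hφN, fun a => ?_⟩
  apply Subtype.ext
  rw [restr_apply]
  have h1 := hφ (eA a)
  have h2 : ((eA a : A.map N.subtype) : G) = ((a : N) : G) := rfl
  rw [h2] at h1
  rw [h1]
  simp only [MulEquiv.trans_apply, MulEquiv.symm_apply_apply]
  rfl

theorem isSolvable_of_layer_eq_bot [Finite G] (hH : Homog G) (hl : Cfsg.layer G = ⊥) :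
    Group.IsSolvable G := by
  have h1 : Group.IsSolvable (⊤ : Subgroup G) := by
    refine Cfsg.Agent.Schreier.Basic.isSolvable_of_perfect_eq_bot ⊤ (fun D _ hD => ?_)
    have h2 : Cfsg.fittingSubgroup G ≤ centralizer (D : Set G) := by
      rw [fittingSubgroup_eq_iSup_pCore]
      refine iSup_le fun p x hx => ?_
      rw [mem_centralizer_iff]
      intro g hg
      have hp : Fact (p : ℕ).Prime := ⟨p.2⟩
      have h3 : g * x * g⁻¹ = x := by
        by_cases hp2 : (p : ℕ) = 2
        · rw [hp2] at hx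
          exact perfect_centralises_two hH hD g hg x hx
        · exact perfect_centralises_odd hp2 hH hD g hg x hx
      rw [mul_inv_eq_iff_eq_mul] at h3
      exact h3
    have h3 : D ≤ Cfsg.fittingSubgroup G :=
      (le_centralizer_iff.1 h2).trans
        (Cfsg.Agent.SignalizersComponents.ComponentExists.centralizer_fitting_le_of_layer_eq_bot hl)
    have h4 : ⁅D, D⁆ = ⊥ := by
      rw [commutator_eq_bot_iff_le_centralizer]
      exact h3.trans h2
    rw [← hD, h4]
  exact Group.isSolvable_of_surjective (f := (Subgroup.topEquiv : (⊤ : Subgroup G) ≃* G).toMonoidHom)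
    (Subgroup.topEquiv : (⊤ : Subgroup G) ≃* G).surjective

end Cfsg.Agent.H486.Hg.Rad
end

private theorem dce_866d4852fea9 : _root_.True := by
  try have : _root_.True := by simp only [_root_.Cfsg.Agent.H486.Hg.Rad.TV.eq_1]
  try have : _root_.True := by simp only [_root_.Cfsg.Agent.H486.Hg.Rad.DD.eq_1]
  try have : _root_.True := by simp only [_root_.Cfsg.Agent.H868.Quad.QM.Z.congr_simp]
  try have : _root_.True := by simp only [_root_.Cfsg.Agent.H868.Quad.QM.beta.congr_simp]
  exact _root_.True.intro
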